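import Cfsg.Agent.Lib.SpOverX.Siegel

/-!
Subgroups containing a complement to the transvection group in the unipotent radical at a vector:
transport of the complement along the orbit of the vector, and the conjugation relations between
the complements at two orthogonal points.
-/

set_option autoImplicit false
set_option linter.unusedSectionVars false

namespace CfsgLib.SpOverX

open Matrix CfsgLib.Geometric CfsgLib.Geometric.Symp

variable {ι : Type} [Fintype ι] [DecidableEq ι] {F : Type*} [Field F] [CharP F 2]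
  {f : (ι → F) → (ι → F) → F} (hf : Cfsg.Geo.IsSymplecticForm f)

/-- `c` describes a complement, contained in `L`, to the transvections in the unipotent radical at `a`. -/
structure IsCompl (L : Subgroup (GL ι F)) (a : ι → F) (c : (ι → F) → F) : Prop where
  mem : ∀ v, f v a = 0 → E hf a v (c v) ∈ L
  add : ∀ v w, f v a = 0 → f w a = 0 → c (v + w) = c v + c w + f v w
  ext : ∀ v (k : F), f v a = 0 → c (v + k • a) = c v

/-- The points in the orbit of `a`. -/
def InP (L : Subgroup (GL ι F)) (a p : ι → F) : Prop :=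
  ∃ g ∈ L, ∃ μ : F, μ ≠ 0 ∧ p = μ • ap g a

variable {L : Subgroup (GL ι F)} {a : ι → F} {c : (ι → F) → F}

lemma InP.refl (L : Subgroup (GL ι F)) (a : ι → F) : InP L a a :=
  ⟨1, one_mem L, 1, one_ne_zero, by simp⟩

lemma InP.ne_zero (ha : a ≠ 0) {p : ι → F} (hp : InP L a p) : p ≠ 0 := by
  obtain ⟨g, -, μ, hμ, rfl⟩ := hp
  exact smul_ne_zero hμ (ap_ne_zero g ha)

lemma InP.smul {p : ι → F} (hp : InP L a p) {k : F} (hk : k ≠ 0) : InP L a (k • p) := by
  obtain ⟨g, hg, μ, hμ, rfl⟩ := hp
  exact ⟨g, hg, k * μ, mul_ne_zero hk hμ, smul_smul k μ _⟩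

lemma InP.map {p : ι → F} (hp : InP L a p) {g : GL ι F} (hg : g ∈ L) : InP L a (ap g p) := by
  obtain ⟨h, hh, μ, hμ, rfl⟩ := hp
  exact ⟨g * h, mul_mem hg hh, μ, hμ, by rw [ap_smul, ap_mul]⟩

lemma InP.trans {b p : ι → F} (hb : InP L a b) (hp : InP L b p) : InP L a p := by
  obtain ⟨h, hh, ν, hν, rfl⟩ := hp
  exact (hb.map hh).smul hν

lemma InP.symm {p : ι → F} (hp : InP L a p) : InP L p a := by
  obtain ⟨g, hg, μ, hμ, rfl⟩ := hp
  refine ⟨g⁻¹, inv_mem hg, μ⁻¹, inv_ne_zero hμ, ?_⟩
  rw [ap_smul, ap_inv_ap, inv_smul_smul₀ hμ]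

include hf

lemma IsCompl.zero (h : IsCompl hf L a c) : c 0 = 0 := by
  have := h.add 0 0 (zero_left hf a) (zero_left hf a)
  rwa [add_zero, hf.alternating, add_zero, CharTwo.add_self_eq_zero] at this

lemma IsCompl.smul_self (h : IsCompl hf L a c) (k : F) : c (k • a) = 0 := by
  have := h.ext 0 k (zero_left hf a)
  rwa [zero_add, h.zero hf] at this

lemma IsCompl.T_mem (h : IsCompl hf L a c) {v : ι → F} (hv : f v a = 0) {d : F}
    (hd : E hf a v d ∈ L) : T hf a (c v + d) ∈ L := by
  rw [← E_mul_same hf hv]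
  exact mul_mem (h.mem v hv) hd

lemma IsCompl.E_mem (h : IsCompl hf L a c) {v : ι → F} (hv : f v a = 0) {d : F}
    (hd : T hf a (c v + d) ∈ L) : E hf a v d ∈ L := by
  have := mul_mem (h.mem v hv) hd
  rwa [← E_zero hf, E_mul hf hv (zero_left hf a), add_zero, zero_right hf, add_zero, ← add_assoc,
    CharTwo.add_self_eq_zero, zero_add] at this

lemma IsCompl.map (h : IsCompl hf L a c) (hL : L ≤ isom f) {g : GL ι F} (hg : g ∈ L) :
    IsCompl hf L (ap g a) (fun v => c (ap g⁻¹ v)) := by
  have hg' := mem_isom_iff.1 (hL (inv_mem hg))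
  have h0 : ∀ v, f v (ap g a) = 0 → f (ap g⁻¹ v) a = 0 := fun v hv => by
    have := hg' v (ap g a)
    rwa [ap_inv_ap, hv] at this
  refine ⟨fun v hv => ?_, fun v w hv hw => ?_, fun v k hv => ?_⟩
  · have := mul_mem (mul_mem hg (h.mem _ (h0 v hv))) (inv_mem hg)
    rwa [E_conj hf (hL hg), ap_ap_inv] at this
  · rw [ap_add, h.add _ _ (h0 v hv) (h0 w hw), hg']
  · rw [ap_add, ap_smul, ap_inv_ap, h.ext _ k (h0 v hv)]

lemma IsCompl.smul (h : IsCompl hf L a c) {μ : F} (hμ : μ ≠ 0) :
    IsCompl hf L (μ • a) (fun v => c (μ • v) / (μ * μ)) := by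
  have h0 : ∀ v, f v (μ • a) = 0 → f v a = 0 := fun v hv => by
    rw [hf.bilinear.smul_right] at hv
    exact (mul_eq_zero.1 hv).resolve_left hμ
  have h1 : ∀ v, f v (μ • a) = 0 → f (μ • v) a = 0 := fun v hv => by
    rw [hf.bilinear.smul_left, h0 v hv, mul_zero]
  refine ⟨fun v hv => ?_, fun v w hv hw => ?_, fun v k hv => ?_⟩
  · rw [E_smul hf (h0 v hv), mul_div_cancel₀ _ (mul_ne_zero hμ hμ)]
    exact h.mem _ (h1 v hv)
  · rw [smul_add, h.add _ _ (h1 v hv) (h1 w hw), hf.bilinear.smul_left, hf.bilinear.smul_right,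
      add_div, add_div, ← mul_assoc, mul_div_cancel_left₀ _ (mul_ne_zero hμ hμ)]
  · rw [smul_add, smul_smul, smul_smul, h.ext _ _ (h1 v hv)]

lemma IsCompl.exists_of_inP (h : IsCompl hf L a c) (hL : L ≤ isom f) {p : ι → F}
    (hp : InP L a p) : ∃ c', IsCompl hf L p c' := by
  obtain ⟨g, hg, μ, hμ, rfl⟩ := hp
  exact ⟨_, (h.map hf hL hg).smul hf hμ⟩

lemma T_mem_of_inP (hL : L ≤ isom f) {p : ι → F} (hp : InP L a p) {s : F}
    (hs : T hf a s ∈ L) : ∃ t : F, (s ≠ 0 → t ≠ 0) ∧ T hf p t ∈ L := by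
  obtain ⟨g, hg, μ, hμ, rfl⟩ := hp
  refine ⟨s / (μ * μ), fun hs0 => div_ne_zero hs0 (mul_ne_zero hμ hμ), ?_⟩
  rw [T_smul, mul_div_cancel₀ _ (mul_ne_zero hμ hμ), ← conj_T hf (hL hg)]
  exact mul_mem (mul_mem hg hs) (inv_mem hg)

/-- No non-trivial transvection at `a` transports along the orbit. -/
lemma noT_of_inP (hL : L ≤ isom f) (hA : ∀ s, T hf a s ∈ L → s = 0) {p : ι → F}
    (hp : InP L a p) : ∀ s, T hf p s ∈ L → s = 0 := fun s hs => by
  by_contra hne
  obtain ⟨t, ht, htL⟩ := T_mem_of_inP hf hL hp.symm hs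
  exact ht hne (hA t htL)

/-- The orbit of `a` contains a point not orthogonal to `a`. -/
lemma exists_partner (ha : a ≠ 0)
    (hirr : ∀ W : Submodule F (ι → F), (∀ g ∈ L, ∀ w ∈ W, ap g w ∈ W) → W = ⊥ ∨ W = ⊤) :
    ∃ b, InP L a b ∧ f a b = 1 := by
  let U := Submodule.span F {p | InP L a p}
  have hU : ∀ g ∈ L, ∀ w ∈ U, ap g w ∈ U := by
    intro g hg w hw
    induction hw using Submodule.span_induction with
    | mem x hx => exact Submodule.subset_span (InP.map hx hg)
    | zero => rw [ap_zero]; exact zero_mem _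
    | add x y _ _ hx hy => rw [ap_add]; exact add_mem hx hy
    | smul k x _ hx => rw [ap_smul]; exact U.smul_mem k hx
  have hne : U ≠ ⊥ := fun h => ha <| (Submodule.mem_bot F).1 <|
    h ▸ Submodule.subset_span (InP.refl L a)
  have htop := (hirr U hU).resolve_left hne
  by_contra hno
  push Not at hno
  have hperp : ∀ p, InP L a p → f a p = 0 := fun p hp => by
    by_contra h0
    exact hno _ (hp.smul (inv_ne_zero h0)) (by rw [hf.bilinear.smul_right, inv_mul_cancel₀ h0])
  obtain ⟨x, hx⟩ := (hf.nondegenerate a ha).1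
  have hxU : x ∈ U := htop ▸ Submodule.mem_top
  apply hx
  clear hx
  rw [symm hf]
  induction hxU using Submodule.span_induction with
  | mem x hx => exact hperp x hx
  | zero => exact zero_right hf a
  | add x y _ _ hx hy => rw [hf.bilinear.add_right, hx, hy, add_zero]
  | smul k x _ hx => rw [hf.bilinear.smul_right, hx, mul_zero]

/-- For any vector outside the line `F p` there is one pairing to `1` with it, orthogonal to `p`. -/
lemma exists_dual_one {U : Submodule F (ι → F)} {x : ι → F} (hx : x ∉ U) (k : F) :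
    ∃ v ∈ perp hf U, f v x = k := by
  obtain ⟨v, hv, hne⟩ := exists_perp_ne hf hx
  refine ⟨(k / f x v) • v, (perp hf U).smul_mem _ hv, ?_⟩
  rw [hf.bilinear.smul_left, symm hf v x, div_mul_cancel₀ _ hne]

/-- Two orthogonal points of the orbit span a line all of whose further points are in the orbit. -/
lemma IsCompl.line {p q : ι → F} (h : IsCompl hf L p c) (hq : InP L a q) (hpq : f q p = 0)
    (hn : q ∉ Submodule.span F {p}) (k : F) : InP L a (q + k • p) := by
  obtain ⟨v, hv, hvq⟩ := exists_dual_one hf hn k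
  have hvp : f v p = 0 := (mem_perp_span hf).1 hv
  have := hq.map (h.mem v hvp)
  rwa [ap_E hf hvp, hpq, zero_smul, add_zero, mul_zero, add_zero, symm hf q v, hvq] at this

/-- Conjugating the complement at `a` by an element of the radical at an orthogonal point. -/
lemma IsCompl.move (h : IsCompl hf L a c) (hL : L ≤ isom f) {p w v : ι → F} {s : F}
    (hpa : f p a = 0) (hwp : f w p = 0) (hwa : f w a = 0) (hy : E hf p w s ∈ L)
    (hva : f v a = 0) :
    T hf a (c (f v p • w + (f v w + s * f v p) • p) + s * (f v p * f v p)) ∈ L := by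
  set u := f v p • w + (f v w + s * f v p) • p with hu
  have hua : f u a = 0 := by
    rw [hu, hf.bilinear.add_left, hf.bilinear.smul_left, hf.bilinear.smul_left, hwa, hpa,
      mul_zero, mul_zero, add_zero]
  have hya : ap (E hf p w s) a = a :=
    ap_E_fix hf hwp s (by rw [symm hf]; exact hpa) (by rw [symm hf]; exact hwa)
  have hyv : ap (E hf p w s) v = v + u := by rw [ap_E hf hwp, hu, add_assoc]
  have := mul_mem (mul_mem hy (h.mem v hva)) (inv_mem hy)
  rw [E_conj hf (hL hy), hya, hyv] at this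
  have h2 := h.T_mem hf (by rw [hf.bilinear.add_left, hva, hua, add_zero]) this
  have hfu : f v u = s * (f v p * f v p) := by
    rw [hu, hf.bilinear.add_right, hf.bilinear.smul_right, hf.bilinear.smul_right]
    linear_combination (f v p * f v w) * CharTwo.two_eq_zero (R := F)
  rw [h.add v u hva hua, hfu] at h2
  convert h2 using 2
  linear_combination - c v * CharTwo.two_eq_zero (R := F)

/-- The relation at an orthogonal point coming from an element with vector in `F a`. -/
lemma IsCompl.pm_line (h : IsCompl hf L a c) (hL : L ≤ isom f) {p : ι → F} (hpa : f p a = 0)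
    (hn : p ∉ Submodule.span F {a}) {η s : F} (hy : E hf p (η • a) s ∈ L) (hs : s ≠ 0) (m : F) :
    T hf a (c (m • p) + m * m / s) ∈ L := by
  obtain ⟨v, hv, hvp⟩ := exists_dual_one hf hn (m / s)
  have hva : f v a = 0 := (mem_perp_span hf).1 hv
  have := h.move hf hL hpa (by rw [hf.bilinear.smul_left, symm hf a p, hpa, mul_zero])
    (by rw [hf.bilinear.smul_left, hf.alternating, mul_zero]) hy hva
  rw [hvp, hf.bilinear.smul_right, hva, mul_zero, zero_add, mul_div_cancel₀ _ hs, smul_smul,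
    add_comm _ (m • p), h.ext _ _ (by rw [hf.bilinear.smul_left, hpa, mul_zero])] at this
  convert this using 3
  field_simp

/-- The relation at an orthogonal point coming from a vector orthogonal to both. -/
lemma IsCompl.pm_perp (h : IsCompl hf L a c) (hL : L ≤ isom f) {p w : ι → F} {s : F}
    (hpa : f p a = 0) (hwp : f w p = 0) (hwa : f w a = 0) (hy : E hf p w s ∈ L)
    (hn : p ∉ Submodule.span F {a, w}) (hw : w ∉ Submodule.span F {a, p}) (m : F) :
    T hf a (c (m • p)) ∈ L := by
  obtain ⟨v₁, hv₁, hv₁p⟩ := exists_dual_one hf hn 1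
  obtain ⟨v₂, hv₂, hv₂w⟩ := exists_dual_one hf hw (m + s)
  have a1 : f v₁ a = 0 := hv₁ a (Submodule.subset_span (by simp))
  have w1 : f v₁ w = 0 := hv₁ w (Submodule.subset_span (by simp))
  have a2 : f v₂ a = 0 := hv₂ a (Submodule.subset_span (by simp))
  have p2 : f v₂ p = 0 := hv₂ p (Submodule.subset_span (by simp))
  obtain ⟨v₃, hv₃, hv₃w⟩ := exists_dual_one hf hw s
  have a3 : f v₃ a = 0 := hv₃ a (Submodule.subset_span (by simp))
  have p3 : f v₃ p = 0 := hv₃ p (Submodule.subset_span (by simp))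
  have h1 := h.move hf hL hpa hwp hwa hy (v := v₁ + v₂) (by
    rw [hf.bilinear.add_left, a1, a2, add_zero])
  have h2 := h.move hf hL hpa hwp hwa hy (v := v₁ + v₃) (by
    rw [hf.bilinear.add_left, a1, a3, add_zero])
  rw [hf.bilinear.add_left, hf.bilinear.add_left, hv₁p, p2, w1, hv₂w, add_zero, zero_add, mul_one,
    mul_one, mul_one, one_smul, add_assoc m s s, CharTwo.add_self_eq_zero, add_zero] at h1
  rw [hf.bilinear.add_left, hf.bilinear.add_left, hv₁p, p3, w1, hv₃w, add_zero, zero_add, mul_one,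
    mul_one, mul_one, one_smul, CharTwo.add_self_eq_zero, zero_smul, add_zero] at h2
  have h3 := mul_mem h1 h2
  rw [T_mul] at h3
  convert h3 using 2
  rw [h.add w (m • p) hwa (by rw [hf.bilinear.smul_left, hpa, mul_zero]), hf.bilinear.smul_right,
    hwp, mul_zero, add_zero]
  linear_combination -(c w + s) * CharTwo.two_eq_zero (R := F)

end CfsgLib.SpOverX
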