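import Cfsg.Agent.Lib.SpOverX.Transvection
import Cfsg.Agent.Lib.Cores.PCore

/-!
A normal two-subgroup of the stabiliser of a vector consists of elements `E a v c`, and a subgroup
of it of the order of the quotient without transvections is a complement.
-/

set_option autoImplicit false
set_option linter.unusedSectionVars false

namespace CfsgLib.SpOverX

open Matrix CfsgLib.Geometric CfsgLib.Geometric.Symp

variable {ι : Type} [Fintype ι] [DecidableEq ι] {F : Type*} [Field F] [CharP F 2]
  {f : (ι → F) → (ι → F) → F} (hf : Cfsg.Geo.IsSymplecticForm f)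

include hf

lemma exists_E_of_normal [Finite F] (h4 : 4 ≤ Fintype.card ι) {a : ι → F} (ha : a ≠ 0)
    (P : Subgroup (GL ι F)) (hP : IsPGroup 2 P) (hPi : P ≤ isom f) (hPa : ∀ g ∈ P, ap g a = a)
    (hN : ∀ h ∈ isom f, ap h a = a → ∀ g ∈ P, h * g * h⁻¹ ∈ P) {g : GL ι F} (hg : g ∈ P) :
    ∃ v c, f v a = 0 ∧ g = E hf a v c := by
  classical
  haveI := Fintype.ofFinite F
  set S : Submodule F (ι → F) := Submodule.span F {a} with hS
  have hperpS : ∀ {z}, z ∈ perp hf S ↔ f z a = 0 := fun {z} => mem_perp_span hf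
  set π := S.mkQ
  have hπ : ∀ {z z'}, π z = π z' → z + z' ∈ S := fun {z z'} h => by
    have h1 : z - z' ∈ S := (Submodule.Quotient.eq S).1 h
    rwa [sub_eq_add_neg, show -z' = z' from funext fun i => CharTwo.neg_eq _] at h1
  have hπ' : ∀ {z z'}, z + z' ∈ S → π z = π z' := fun {z z'} h => by
    apply (Submodule.Quotient.eq S).2
    rwa [sub_eq_add_neg, show -z' = z' from funext fun i => CharTwo.neg_eq _]
  set Y : Submodule F ((ι → F) ⧸ S) := (perp hf S).map π with hY
  have hstab : ∀ k : P, S ≤ Submodule.comap (apEquiv (k : GL ι F)).toLinearMap S := by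
    intro k z hz
    obtain ⟨t, rfl⟩ := Submodule.mem_span_singleton.1 hz
    rw [Submodule.mem_comap]
    show ap (k : GL ι F) (t • a) ∈ S
    rw [ap_smul, hPa _ k.2]
    exact hz
  let σ : P → ((ι → F) ⧸ S) → ((ι → F) ⧸ S) := fun k =>
    Submodule.mapQ S S (apEquiv (k : GL ι F)).toLinearMap (hstab k)
  have σmk : ∀ k z, σ k (π z) = π (ap (k : GL ι F) z) := fun k z => rfl
  have hσY : ∀ k y, y ∈ Y → σ k y ∈ Y := by
    rintro k _ ⟨z, hz, rfl⟩
    refine ⟨ap (k : GL ι F) z, ?_, (σmk k z).symm⟩
    have := mem_isom_iff.1 (hPi k.2) z a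
    rw [hPa _ k.2, hperpS.1 hz] at this
    exact hperpS.2 this
  letI : MulAction P Y :=
    { smul := fun k y => ⟨σ k y.1, hσY k y.1 y.2⟩
      one_smul := fun y => Subtype.ext (by
        obtain ⟨z, -, hz⟩ := y.2
        show σ 1 y.1 = y.1
        rw [← hz, σmk, Subgroup.coe_one, ap_one])
      mul_smul := fun k k' y => Subtype.ext (by
        obtain ⟨z, -, hz⟩ := y.2
        show σ (k * k') y.1 = σ k (σ k' y.1)
        rw [← hz, σmk, σmk, σmk, Subgroup.coe_mul, ap_mul]) }
  obtain ⟨x, hx⟩ := exists_notMem_span hf {a} (by rw [Finset.card_singleton]; omega)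
  rw [Finset.coe_singleton] at hx
  obtain ⟨v₁, hv₁, -⟩ := exists_dual_one hf hx 1
  obtain ⟨y₁, hy₁⟩ := (hf.nondegenerate a ha).1
  set b := (f y₁ a)⁻¹ • y₁ with hb
  have hba : f b a = 1 := by rw [hb, hf.bilinear.smul_left, inv_mul_cancel₀ hy₁]
  have hab : f a b = 1 := by rw [symm hf]; exact hba
  obtain ⟨d, e, hda, hdb, -, -, hde⟩ := exists_orth_pair hf hab h4
  have hd : π d ≠ 0 := by
    intro h0
    have h0' : π d = π 0 := by rw [h0, map_zero]
    have h1 := hπ h0'
    rw [add_zero] at h1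
    obtain ⟨t, rfl⟩ := Submodule.mem_span_singleton.1 h1
    rw [hf.bilinear.smul_left, hab, mul_one] at hdb
    rw [hdb, zero_smul, zero_left hf] at hde
    exact zero_ne_one hde
  have hYne : Y ≠ ⊥ := fun hbot => hd <| (Submodule.mem_bot F).1 <|
    hbot ▸ ⟨d, hperpS.2 hda, rfl⟩
  have h2F : 2 ∣ Nat.card F := by
    obtain ⟨n, -, hn⟩ := FiniteField.card F 2
    rw [Nat.card_eq_fintype_card, hn]
    exact dvd_pow_self 2 n.ne_zero
  have hdvd : 2 ∣ Nat.card Y := by
    rw [Module.natCard_eq_pow_finrank (K := F)]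
    exact dvd_trans h2F (dvd_pow_self _ (fun h0 => hYne (Submodule.finrank_eq_zero.1 h0)))
  obtain ⟨y, hy, hy0⟩ := hP.exists_fixed_point_of_prime_dvd_card_of_fixed_point (α := Y) hdvd
    (a := 0) (fun k => Subtype.ext (by
      show σ k ((0 : Y) : (ι → F) ⧸ S) = 0
      exact map_zero (Submodule.mapQ S S _ (hstab k))))
  obtain ⟨w, hw, hwy⟩ := y.2
  -- the invariant subspace
  let W : Submodule F (ι → F) :=
    { carrier := {z | f z a = 0 ∧ ∀ k ∈ P, ap k z + z ∈ S}
      add_mem' := fun {p q} hp hq => ⟨by rw [hf.bilinear.add_left, hp.1, hq.1, add_zero],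
        fun k hk => by
          rw [ap_add, show ap k p + ap k q + (p + q) = (ap k p + p) + (ap k q + q) by abel]
          exact add_mem (hp.2 k hk) (hq.2 k hk)⟩
      zero_mem' := ⟨zero_left hf a, fun k _ => by rw [ap_zero, add_zero]; exact zero_mem _⟩
      smul_mem' := fun t p hp => ⟨by rw [hf.bilinear.smul_left, hp.1, mul_zero],
        fun k hk => by rw [ap_smul, ← smul_add]; exact S.smul_mem t (hp.2 k hk)⟩ }
  have hwW : w ∈ W := by
    refine ⟨hperpS.1 hw, fun k hk => hπ ?_⟩
    rw [← σmk ⟨k, hk⟩, hwy]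
    exact congrArg Subtype.val (hy ⟨k, hk⟩)
  have hwS : w ∉ S := fun h => hy0 <| Subtype.ext <| by
    rw [← hwy]
    exact ((Submodule.Quotient.mk_eq_zero S).2 h).symm
  have hWH : ∀ h ∈ isom f, ap h a = a → ∀ z ∈ W, ap h z ∈ W := by
    intro h hh hha z hz
    refine ⟨?_, fun k hk => ?_⟩
    · have := mem_isom_iff.1 hh z a
      rwa [hha, hz.1] at this
    · have hk' := hN h⁻¹ (inv_mem hh) (by rw [← hha, ap_inv_ap, hha]) k hk
      rw [inv_inv] at hk'
      have h2 := hz.2 _ hk'
      obtain ⟨t, ht⟩ := Submodule.mem_span_singleton.1 h2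
      refine Submodule.mem_span_singleton.2 ⟨t, ?_⟩
      have := congrArg (ap h) ht
      rw [ap_smul, hha, ap_add, ap_mul, ap_mul, ap_ap_inv] at this
      exact this
  have hall : ∀ z, f z a = 0 → z ∈ W := by
    have base : ∀ z, f z a = 0 → f w z ≠ 0 → z ∈ W := by
      intro z hz hwz
      have h1 := hWH _ (T_mem_isom hf z 1)
        (ap_T_fix hf 1 (by rw [symm hf]; exact hz)) w hwW
      rw [ap_T hf, one_mul] at h1
      have h2 : f w z • z ∈ W := by
        have := W.sub_mem h1 hwW
        rwa [add_sub_cancel_left] at this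
      have := W.smul_mem (f w z)⁻¹ h2
      rwa [inv_smul_smul₀ hwz] at this
    intro z hz
    by_cases hwz : f w z = 0
    · obtain ⟨u, hu, hne⟩ := exists_perp_ne hf hwS
      have hua := hperpS.1 hu
      have h1 := base (z + u) (by rw [hf.bilinear.add_left, hz, hua, add_zero])
        (by rw [hf.bilinear.add_right, hwz, zero_add]; exact hne)
      have := W.sub_mem h1 (base u hua hne)
      rwa [add_sub_cancel_right] at this
    · exact base z hz hwz
  have hgI := mem_isom_iff.1 (hPi hg)
  have hga := hPa g hg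
  set v := ap g b + b with hv
  have hva : f v a = 0 := by
    rw [hv, hf.bilinear.add_left]
    have := hgI b a
    rw [hga] at this
    rw [this, CharTwo.add_self_eq_zero]
  clear_value v
  refine ⟨v, f b v, hva, gl_ext fun z => ?_⟩
  rw [ap_E hf hva]
  set z₀ := z + f z a • b with hz₀
  have hz₀a : f z₀ a = 0 := by
    rw [hz₀, hf.bilinear.add_left, hf.bilinear.smul_left, hba, mul_one, CharTwo.add_self_eq_zero]
  obtain ⟨t, ht⟩ := Submodule.mem_span_singleton.1 ((hall z₀ hz₀a).2 g hg)
  have hgz : ap g z₀ = z₀ + t • a := by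
    rw [ht, add_comm, vec_add_add]
  have ht2 : t = f z₀ v := by
    have h1 := hgI z₀ b
    have hgb : ap g b = b + v := by rw [hv, ← add_assoc, add_comm b, vec_add_add]
    rw [hgz, hgb, hf.bilinear.add_left, hf.bilinear.add_right, hf.bilinear.add_right,
      hf.bilinear.smul_left, hf.bilinear.smul_left, hab, symm hf a v, hva, mul_zero, mul_one] at h1
    linear_combination h1 - f z₀ v * CharTwo.two_eq_zero (R := F)
  have e1 : z = z₀ + f z a • b := by rw [hz₀, vec_add_add]
  conv_lhs => rw [e1, ap_add, ap_smul, hgz, ht2]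
  have hgb : ap g b = b + v := by rw [hv, ← add_assoc, add_comm b, vec_add_add]
  rw [hgb, hz₀, hf.bilinear.add_left, hf.bilinear.smul_left]
  ext i
  simp only [Pi.add_apply, Pi.smul_apply, smul_eq_mul]
  linear_combination (f z a * b i) * CharTwo.two_eq_zero (R := F)

/-- The complement function of `X`. -/
theorem exists_isCompl [Finite F] (h4 : 4 ≤ Fintype.card ι) {a : ι → F} (ha : a ≠ 0)
    (X : Subgroup (GL ι F)) (hX : ∀ g ∈ X, ∃ v c, f v a = 0 ∧ g = E hf a v c)
    (hcard : Nat.card X = Nat.card F ^ (Fintype.card ι - 2))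
    (hnt : ∀ g ∈ X, ((g : Matrix ι ι F) - 1).rank ≠ 1)
    {L : Subgroup (GL ι F)} (hXL : X ≤ L) : ∃ c, IsCompl hf L a c := by
  classical
  haveI := Fintype.ofFinite F
  obtain ⟨y₁, hy₁⟩ := (hf.nondegenerate a ha).1
  set b := (f y₁ a)⁻¹ • y₁ with hb
  have hba : f b a = 1 := by rw [hb, hf.bilinear.smul_left, inv_mul_cancel₀ hy₁]
  have hab : f a b = 1 := by rw [symm hf]; exact hba
  have uniq : ∀ v, f v a = 0 → ∀ c d, E hf a v c ∈ X → E hf a v d ∈ X → c = d := by
    intro v hv c d hc hd
    by_contra hne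
    have hs : c + d ≠ 0 := fun h => hne (CharTwo.add_eq_zero.1 h)
    have := mul_mem hc hd
    rw [E_mul_same hf hv] at this
    apply hnt _ this
    set A := ((T hf a (c + d) : Matrix ι ι F) - 1).mulVecLin with hA
    have hAz : ∀ z, A z = ((c + d) * f z a) • a := fun z => by
      rw [hA, Matrix.mulVecLin_apply, Matrix.sub_mulVec, Matrix.one_mulVec, ← ap_def, ap_T hf,
        add_sub_cancel_left]
    have hr : LinearMap.range A = Submodule.span F {a} := by
      apply le_antisymm
      · rintro _ ⟨z, rfl⟩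
        rw [hAz]
        exact Submodule.smul_mem _ _ (Submodule.mem_span_singleton_self a)
      · rw [Submodule.span_le, Set.singleton_subset_iff]
        exact ⟨(c + d)⁻¹ • b, by
          rw [hAz, hf.bilinear.smul_left, hba, mul_one, mul_inv_cancel₀ hs, one_smul]⟩
    rw [Matrix.rank, ← hA, hr, finrank_span_singleton ha]
  let W : Submodule F (ι → F) := perp hf (Submodule.span F {a, b})
  have hW : ∀ {z}, z ∈ W ↔ f z a = 0 ∧ f z b = 0 := fun {z} =>
    ⟨fun h => ⟨h a (Submodule.subset_span (by simp)), h b (Submodule.subset_span (by simp))⟩,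
      fun h u hu => by
        obtain ⟨α, β, rfl⟩ := Submodule.mem_span_pair.1 hu
        rw [hf.bilinear.add_right, hf.bilinear.smul_right, hf.bilinear.smul_right, h.1, h.2,
          mul_zero, mul_zero, add_zero]⟩
  choose vX cX hvX hgX using hX
  let χ : X → W := fun g => ⟨proj f a b (vX g g.2),
    hW.2 ⟨proj_perp_left hf hab _, proj_perp_right hf hab _⟩⟩
  have hnorm : ∀ g : X, E hf a (proj f a b (vX g g.2)) (cX g g.2) = (g : GL ι F) := fun g => by
    rw [proj, hvX g g.2, zero_smul, add_zero, E_add_smul hf (hvX g g.2), ← hgX g g.2]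
  have hχ : Function.Injective χ := by
    intro g g' h
    have hv : proj f a b (vX g g.2) = proj f a b (vX g' g'.2) := congrArg Subtype.val h
    have h1 : E hf a (proj f a b (vX g g.2)) (cX g g.2) ∈ X := by rw [hnorm]; exact g.2
    have h2 : E hf a (proj f a b (vX g g.2)) (cX g' g'.2) ∈ X := by rw [hv, hnorm]; exact g'.2
    refine Subtype.ext ?_
    rw [← hnorm g, ← hnorm g', uniq _ (proj_perp_left hf hab _) _ _ h1 h2, hv]
  have hcardW : Nat.card W = Nat.card F ^ (Fintype.card ι - 2) := by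
    let φ : (ι → F) → F × F × W := fun z => (f z b, f z a, ⟨proj f a b z,
      hW.2 ⟨proj_perp_left hf hab z, proj_perp_right hf hab z⟩⟩)
    have hφ : Function.Bijective φ := by
      constructor
      · intro z z' h
        simp only [φ, Prod.mk.injEq, Subtype.mk.injEq] at h
        obtain ⟨h1, h2, h3⟩ := h
        rw [proj, proj, h1, h2] at h3
        exact add_right_cancel (add_right_cancel h3)
      · rintro ⟨s, t, w, hw⟩
        obtain ⟨hwa, hwb⟩ := hW.1 hw
        refine ⟨w + s • a + t • b, ?_⟩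
        have e1 : f (w + s • a + t • b) b = s := by
          simp [hf.bilinear.add_left, hf.bilinear.smul_left, hwb, hab, hf.alternating]
        have e2 : f (w + s • a + t • b) a = t := by
          simp [hf.bilinear.add_left, hf.bilinear.smul_left, hwa, hba, hf.alternating]
        simp only [φ, Prod.mk.injEq, Subtype.mk.injEq, e1, e2, proj, true_and]
        ext i
        simp only [Pi.add_apply, Pi.smul_apply, smul_eq_mul]
        linear_combination (s * a i + t * b i) * CharTwo.two_eq_zero (R := F)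
    have h := Nat.card_congr (Equiv.ofBijective φ hφ)
    rw [Nat.card_fun, Nat.card_eq_fintype_card (α := ι), Nat.card_prod, Nat.card_prod,
      ← mul_assoc, ← sq] at h
    obtain ⟨k, hk⟩ : ∃ k, Fintype.card ι = k + 2 := ⟨Fintype.card ι - 2, by omega⟩
    rw [hk, pow_add, mul_comm] at h
    rw [hk, Nat.add_sub_cancel]
    exact (Nat.eq_of_mul_eq_mul_left (pow_pos Nat.card_pos 2) h).symm
  have hbij : Function.Bijective χ :=
    (Nat.bijective_iff_injective_and_card χ).2 ⟨hχ, by rw [hcard, hcardW]⟩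
  have hex : ∀ w, f w a = 0 → f w b = 0 → ∃ d, E hf a w d ∈ X := by
    intro w hwa hwb
    obtain ⟨g, hg⟩ := hbij.2 ⟨w, hW.2 ⟨hwa, hwb⟩⟩
    have hv : proj f a b (vX g g.2) = w := congrArg Subtype.val hg
    exact ⟨cX g g.2, by rw [← hv, hnorm]; exact g.2⟩
  have hex' : ∀ v, f v a = 0 → ∃ d, E hf a v d ∈ X := by
    intro v hv
    obtain ⟨d, hd⟩ := hex _ (proj_perp_left hf hab v) (proj_perp_right hf hab v)
    rw [proj, hv, zero_smul, add_zero, E_add_smul hf hv] at hd
    exact ⟨d, hd⟩
  let c : (ι → F) → F := fun v => if h : f v a = 0 then (hex' v h).choose else 0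
  have hc : ∀ v (h : f v a = 0), E hf a v (c v) ∈ X := fun v h => by
    simp only [c, dif_pos h]
    exact (hex' v h).choose_spec
  refine ⟨c, fun v hv => hXL (hc v hv), fun v w hv hw => ?_, fun v k hv => ?_⟩
  · have hvw : f (v + w) a = 0 := by rw [hf.bilinear.add_left, hv, hw, add_zero]
    have := mul_mem (hc v hv) (hc w hw)
    rw [E_mul hf hv hw] at this
    exact uniq _ hvw _ _ (hc _ hvw) this
  · have hvk : f (v + k • a) a = 0 := by
      rw [hf.bilinear.add_left, hv, hf.bilinear.smul_left, hf.alternating, mul_zero, add_zero]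
    have := hc _ hvk
    rw [E_add_smul hf hv] at this
    exact uniq _ hv _ _ this (hc v hv)

end CfsgLib.SpOverX
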