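import Cfsg.Agent.Lib.SpOverX.Transvection

/-!
Without transvections at `a`, and when the complement functions vanish on orbit points orthogonal to
their base point, the group preserves a quadratic form with polar form `f`.
-/

set_option autoImplicit false
set_option linter.unusedSectionVars false

namespace CfsgLib.SpOverX

open Matrix CfsgLib.Geometric CfsgLib.Geometric.Symp

variable {ι : Type} [Fintype ι] [DecidableEq ι] {F : Type*} [Field F] [CharP F 2]
  {f : (ι → F) → (ι → F) → F} (hf : Cfsg.Geo.IsSymplecticForm f)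
  {L : Subgroup (GL ι F)} {a b : ι → F} {c cb : (ι → F) → F}

/-- The complement functions vanish on orbit points orthogonal to their base point. -/
def ZProp (L : Subgroup (GL ι F)) (a : ι → F) : Prop :=
  ∀ x, InP L a x → ∀ cx, IsCompl hf L x cx → ∀ p, InP L a p → f p x = 0 →
    p ∉ Submodule.span F {x} → ∀ m : F, cx (m • p) = 0

/-- Two additive bijections exchanging `u` and `u/ℓ u` are squares. -/
lemma sq_of_relation [Finite F] (ℓ ℓ' : F → F) (hℓ : ∀ x y, ℓ (x + y) = ℓ x + ℓ y)
    (hℓ' : ∀ x y, ℓ' (x + y) = ℓ' x + ℓ' y) (h0 : ∀ u, u ≠ 0 → ℓ u ≠ 0)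
    (h0' : ∀ u, u ≠ 0 → ℓ' u ≠ 0) (hrel : ∀ u, u ≠ 0 → ℓ' ((ℓ u)⁻¹ * u) = (ℓ u)⁻¹) (u : F) :
    ℓ u = u * u * ℓ 1 := by
  classical
  have z : ℓ 0 = 0 := by have := hℓ 0 0; rwa [add_zero, CharTwo.add_self_eq_zero] at this
  have z' : ℓ' 0 = 0 := by have := hℓ' 0 0; rwa [add_zero, CharTwo.add_self_eq_zero] at this
  have inj : ∀ (φ : F → F), (∀ x y, φ (x + y) = φ x + φ y) → (∀ x, x ≠ 0 → φ x ≠ 0) →
      Function.Injective φ := by
    intro φ hφ hne x y hxy
    by_contra hne'
    exact hne (x + y) (fun h => hne' (CharTwo.add_eq_zero.1 h))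
      (by rw [hφ, hxy, CharTwo.add_self_eq_zero])
  obtain ⟨e, he⟩ : ∃ e : F ≃ F, ∀ x, e x = ℓ x :=
    ⟨Equiv.ofBijective ℓ (Finite.injective_iff_bijective.1 (inj ℓ hℓ h0)), fun _ => rfl⟩
  obtain ⟨e', he'⟩ : ∃ e : F ≃ F, ∀ x, e x = ℓ' x :=
    ⟨Equiv.ofBijective ℓ' (Finite.injective_iff_bijective.1 (inj ℓ' hℓ' h0')), fun _ => rfl⟩
  have madd : ∀ x y, e.symm (x + y) = e.symm x + e.symm y := fun x y => by
    apply e.injective
    rw [Equiv.apply_symm_apply, he, hℓ, ← he, ← he, Equiv.apply_symm_apply, Equiv.apply_symm_apply]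
  have madd' : ∀ x y, e'.symm (x + y) = e'.symm x + e'.symm y := fun x y => by
    apply e'.injective
    rw [Equiv.apply_symm_apply, he', hℓ', ← he', ← he', Equiv.apply_symm_apply,
      Equiv.apply_symm_apply]
  have m0 : e.symm 0 = 0 := e.injective (by rw [Equiv.apply_symm_apply, he, z])
  have hm : ∀ y, y ≠ 0 → e'.symm y⁻¹ = y⁻¹ * e.symm y := by
    intro y hy
    have hu : e.symm y ≠ 0 := fun h => hy <| by
      rw [← e.apply_symm_apply y, h, he, z]
    have hrel' := hrel _ hu
    rw [← he, Equiv.apply_symm_apply] at hrel'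
    apply e'.injective
    rw [Equiv.apply_symm_apply, he', hrel']
  set m := e.symm with hmdef
  have hR : ∀ X : F, X ≠ 0 → X ≠ 1 → (X + 1) * m (X + 1)⁻¹ = m (X + 1) := by
    intro X hX hX1
    have hX' : X + 1 ≠ 0 := fun h => hX1 (CharTwo.add_eq_zero.1 h)
    have h1 := madd' 1 X⁻¹
    have h2 : (1 : F) + X⁻¹ = (X * (X + 1)⁻¹)⁻¹ := by field_simp
    have h3 : X * (X + 1)⁻¹ = 1 + (X + 1)⁻¹ := by
      field_simp
      linear_combination -CharTwo.two_eq_zero (R := F)
    have h4 : e'.symm 1 = m 1 := by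
      have := hm 1 one_ne_zero
      rwa [inv_one, one_mul] at this
    rw [h2, hm _ (mul_ne_zero hX (inv_ne_zero hX')), hm X hX, h4, h3, madd, ← h3] at h1
    rw [madd X 1]
    field_simp at h1
    simp only [one_div] at h1
    linear_combination h1 - (m 1) * CharTwo.two_eq_zero (R := F)
  have hR' : ∀ Z : F, Z ≠ 0 → Z * m Z⁻¹ = m Z := by
    intro Z hZ
    by_cases h1 : Z = 1
    · rw [h1, inv_one, one_mul]
    · have := hR (Z + 1) (fun h => h1 (CharTwo.add_eq_zero.1 h))
        (fun h => hZ (add_eq_right.1 h))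
      rwa [add_assoc, CharTwo.add_self_eq_zero, add_zero] at this
  have hsq : ∀ X : F, m (X * X) = X * m 1 := by
    intro X
    by_cases hX : X = 0
    · rw [hX, zero_mul, zero_mul, m0]
    by_cases hX1 : X = 1
    · rw [hX1, one_mul, one_mul]
    have hX' : X + 1 ≠ 0 := fun h => hX1 (CharTwo.add_eq_zero.1 h)
    have hP : X * (X + 1) ≠ 0 := mul_ne_zero hX hX'
    have h1 : (X * (X + 1))⁻¹ = X⁻¹ + (X + 1)⁻¹ := by
      field_simp
      linear_combination -X * CharTwo.two_eq_zero (R := F)
    have h2 := hR' _ hP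
    rw [h1, madd] at h2
    have h3 := hR' X hX
    have h4 := hR X hX hX1
    rw [show X * (X + 1) = X * X + X by ring, madd (X * X) X] at h2
    have h5 : m (X + 1) = m X + m 1 := madd X 1
    linear_combination -h2 + (X + 1) * h3 + X * h4 + X * h5
      + (X * m X) * CharTwo.two_eq_zero (R := F)
  have key : ∀ u : F, ℓ u = u / m 1 * (u / m 1) := by
    intro u
    have hm1 : m 1 ≠ 0 := fun h => one_ne_zero (α := F) <| by
      rw [← e.apply_symm_apply 1, ← hmdef, h, he, z]
    have h1 := hsq (u / m 1)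
    rw [div_mul_cancel₀ _ hm1] at h1
    have h2 := congrArg e h1
    rw [hmdef, Equiv.apply_symm_apply, he] at h2
    exact h2.symm
  rw [key u, key 1]
  ring

include hf

lemma IsCompl.eq_of_mem (h : IsCompl hf L a c) (hA : ∀ s, T hf a s ∈ L → s = 0) {v : ι → F}
    (hv : f v a = 0) {d : F} (hd : E hf a v d ∈ L) : d = c v :=
  (CharTwo.add_eq_zero.1 (hA _ (h.T_mem hf hv hd))).symm

lemma notMem_span_of_perp (hab : f a b = 1) {v : ι → F} (hvb : f v b = 0) (hv : v ≠ 0) :
    v ∉ Submodule.span F {a} := by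
  intro hmem
  obtain ⟨k, rfl⟩ := Submodule.mem_span_singleton.1 hmem
  rw [hf.bilinear.smul_left, hab, mul_one] at hvb
  exact hv (by rw [hvb, zero_smul])

lemma IsCompl.inP_of_add (hb : IsCompl hf L b cb) (hab : f a b = 1) {v : ι → F}
    (hP : InP L a (b + v)) (hva : f v a = 0) (hvb : f v b = 0) (hv : v ≠ 0) : InP L a v := by
  have hq : f (b + v) b = 0 := by rw [hf.bilinear.add_left, hf.alternating, hvb, add_zero]
  have hn : b + v ∉ Submodule.span F {b} := by
    intro hmem
    obtain ⟨k, hk⟩ := Submodule.mem_span_singleton.1 hmem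
    have h3 : f (k • b) a = f (b + v) a := by rw [hk]
    rw [hf.bilinear.smul_left, hf.bilinear.add_left, symm hf b a, hab, hva, add_zero,
      mul_one] at h3
    rw [h3, one_smul] at hk
    exact hv (add_eq_left.1 hk.symm)
  have h4' := hb.line hf hP hq hn 1
  rwa [one_smul, add_comm b v, vec_add_add] at h4'

lemma IsCompl.zero_point (h : IsCompl hf L a c) (hb : IsCompl hf L b cb) (hab : f a b = 1)
    (hbP : InP L a b) {v : ι → F} (hva : f v a = 0) (hvb : f v b = 0) (hv : v ≠ 0)
    (hcv : c v = 0) : InP L a v := by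
  refine hb.inP_of_add hf hab ?_ hva hvb hv
  have := hbP.map (h.mem v hva)
  rwa [ap_E hf hva, hcv, symm hf b a, hab, symm hf b v, hvb, one_smul, zero_mul, add_zero,
    zero_smul, add_zero] at this

lemma IsCompl.norm_eq [Finite F] (h : IsCompl hf L a c) (hb : IsCompl hf L b cb)
    (hab : f a b = 1) (h4 : 4 ≤ Fintype.card ι) (hZ : ZProp hf L a) {z : ι → F}
    (hz : InP L a z) (hza : f z a = 1) : f z b + c (proj f a b z) = 0 := by
  by_contra hne
  have h1 := hz.map (h.mem _ (proj_perp_left hf hab z))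
  rw [h.ap_norm hf hab hza] at h1
  obtain ⟨d, hd, hda, hdb, hd0, hcd⟩ := h.exists_perp_point hf hb hab h4 hne h1
  have := hZ a (InP.refl L a) c h d hd hda (notMem_span_of_perp hf hab hdb hd0) 1
  rw [one_smul, hcd] at this
  exact hne this

lemma IsCompl.inverse [Finite F] (h : IsCompl hf L a c) (hb : IsCompl hf L b cb)
    (hab : f a b = 1) (h4 : 4 ≤ Fintype.card ι) (hZ : ZProp hf L a) {v : ι → F}
    (hva : f v a = 0) (hvb : f v b = 0) (hs : cb v ≠ 0) :
    c ((cb v)⁻¹ • v) = (cb v)⁻¹ := by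
  have hP := ((InP.refl L a).map (hb.mem v hvb)).smul (inv_ne_zero hs)
  rw [ap_E hf hvb, hab, symm hf a v, hva, one_smul, zero_add, mul_one] at hP
  set s := cb v
  set z := s⁻¹ • (a + v + s • b) with hzdef
  have hza : f z a = 1 := by
    rw [hzdef, hf.bilinear.smul_left, hf.bilinear.add_left, hf.bilinear.add_left,
      hf.bilinear.smul_left, hf.alternating, hva, symm hf b a, hab, zero_add, zero_add, mul_one,
      inv_mul_cancel₀ hs]
  have hzb : f z b = s⁻¹ := by
    rw [hzdef, hf.bilinear.smul_left, hf.bilinear.add_left, hf.bilinear.add_left,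
      hf.bilinear.smul_left, hab, hvb, hf.alternating, mul_zero, add_zero, add_zero, mul_one]
  have hzp : proj f a b z = s⁻¹ • v := by
    rw [proj, hza, hzb, hzdef]
    ext i
    simp only [one_smul, Pi.add_apply, Pi.smul_apply, smul_eq_mul]
    field_simp
    linear_combination (a i + s * b i) * CharTwo.two_eq_zero (R := F)
  have := h.norm_eq hf hb hab h4 hZ hP hza
  rw [hzb, hzp] at this
  exact (CharTwo.add_eq_zero.1 this).symm

lemma IsCompl.homogeneous [Finite F] (h : IsCompl hf L a c) (hb : IsCompl hf L b cb)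
    (hab : f a b = 1) (hbP : InP L a b) (h4 : 4 ≤ Fintype.card ι) (hZ : ZProp hf L a)
    {v : ι → F} (hva : f v a = 0) (hvb : f v b = 0) (k : F) :
    c (k • v) = k * k * c v := by
  by_cases hv : v = 0
  · rw [hv, smul_zero, h.zero hf, mul_zero]
  have hsa : ∀ u : F, f (u • v) a = 0 := fun u => by rw [hf.bilinear.smul_left, hva, mul_zero]
  have hsb : ∀ u : F, f (u • v) b = 0 := fun u => by rw [hf.bilinear.smul_left, hvb, mul_zero]
  have hba : f b a = 1 := by rw [symm hf]; exact hab
  by_cases hex : ∃ u : F, u ≠ 0 ∧ InP L a (u • v)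
  · obtain ⟨u, hu, huP⟩ := hex
    have hall : ∀ m : F, c (m • v) = 0 := fun m => by
      have := hZ a (InP.refl L a) c h _ huP (hsa u)
        (notMem_span_of_perp hf hab (hsb u) (smul_ne_zero hu hv)) (m / u)
      rwa [smul_smul, div_mul_cancel₀ _ hu] at this
    rw [hall, ← one_smul F v, hall, mul_zero]
  push Not at hex
  have h0 : ∀ u : F, u ≠ 0 → c (u • v) ≠ 0 := fun u hu h0 =>
    hex u hu (h.zero_point hf hb hab hbP (hsa u) (hsb u) (smul_ne_zero hu hv) h0)
  have h0' : ∀ u : F, u ≠ 0 → cb (u • v) ≠ 0 := fun u hu h0 =>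
    hex u hu (hbP.trans (hb.zero_point hf h hba hbP.symm (hsb u) (hsa u) (smul_ne_zero hu hv) h0))
  have hZb : ZProp hf L b := fun x hx cx hcx p hp =>
    hZ x (hbP.trans hx) cx hcx p (hbP.trans hp)
  have hadd : ∀ x y : F, c ((x + y) • v) = c (x • v) + c (y • v) := fun x y => by
    rw [add_smul, h.add _ _ (hsa x) (hsa y), hf.bilinear.smul_left, hf.bilinear.smul_right,
      hf.alternating, mul_zero, mul_zero, add_zero]
  have hadd' : ∀ x y : F, cb ((x + y) • v) = cb (x • v) + cb (y • v) := fun x y => by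
    rw [add_smul, hb.add _ _ (hsb x) (hsb y), hf.bilinear.smul_left, hf.bilinear.smul_right,
      hf.alternating, mul_zero, mul_zero, add_zero]
  have := sq_of_relation (fun u => c (u • v)) (fun u => cb (u • v)) hadd hadd' h0 h0'
    (fun u hu => by
      have := hb.inverse hf h hba h4 hZb (hsb u) (hsa u) (h0 u hu)
      rwa [smul_smul] at this) k
  simpa using this

/-- The quadratic form. -/
theorem exists_form [Finite F] (hL : L ≤ isom f) (ha : a ≠ 0) (h : IsCompl hf L a c)
    (hirr : ∀ W : Submodule F (ι → F), (∀ g ∈ L, ∀ w ∈ W, ap g w ∈ W) → W = ⊥ ∨ W = ⊤)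
    (h4 : 4 ≤ Fintype.card ι) (hZ : ZProp hf L a) :
    ∃ (Q : QuadraticForm F (ι → F)) (b : ι → F), InP L a b ∧ f a b = 1 ∧
      (∀ u v, QuadraticMap.polar (⇑Q) u v = f u v) ∧ (∀ g ∈ L, ∀ z, Q (ap g z) = Q z) ∧
      Q a = 0 ∧ Q b = 0 ∧ (∀ p, InP L a p → Q p = 0 ∧ IsCompl hf L p ⇑Q) := by
  obtain ⟨b, hbP, hab⟩ := exists_partner hf ha hirr
  obtain ⟨cb, hb⟩ := h.exists_of_inP hf hL hbP
  have hba : f b a = 1 := by rw [symm hf]; exact hab
  let Qf : (ι → F) → F := fun z => f z a * f z b + c (proj f a b z)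
  have hpj_add : ∀ y z, proj f a b (y + z) = proj f a b y + proj f a b z := fun y z => by
    simp only [proj, hf.bilinear.add_left, add_smul]
    abel
  have hpj_smul : ∀ (k : F) z, proj f a b (k • z) = k • proj f a b z := fun k z => by
    simp only [proj, hf.bilinear.smul_left, smul_add, smul_smul]
  have hpolar : ∀ y z, Qf (y + z) = Qf y + Qf z + f y z := fun y z => by
    have hp : f (proj f a b y) (proj f a b z) = f y z + f y b * f z a + f y a * f z b := by
      conv_lhs =>
        rw [show proj f a b z = z + f z b • a + f z a • b from rfl, hf.bilinear.add_right,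
          hf.bilinear.add_right, hf.bilinear.smul_right, hf.bilinear.smul_right,
          proj_perp_left hf hab, proj_perp_right hf hab, mul_zero, mul_zero, add_zero, add_zero]
      rw [proj, hf.bilinear.add_left, hf.bilinear.add_left, hf.bilinear.smul_left,
        hf.bilinear.smul_left, symm hf a z, symm hf b z]
    simp only [Qf]
    rw [hpj_add, h.add _ _ (proj_perp_left hf hab y) (proj_perp_left hf hab z), hp,
      hf.bilinear.add_left, hf.bilinear.add_left]
    linear_combination (f y a * f z b + f z a * f y b) * CharTwo.two_eq_zero (R := F)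
  have hsmul : ∀ (k : F) z, Qf (k • z) = k * k * Qf z := fun k z => by
    simp only [Qf]
    rw [hpj_smul, h.homogeneous hf hb hab hbP h4 hZ (proj_perp_left hf hab z)
      (proj_perp_right hf hab z), hf.bilinear.smul_left, hf.bilinear.smul_left]
    ring
  have hpl : ∀ u v, QuadraticMap.polar Qf u v = f u v := fun u v => by
    rw [QuadraticMap.polar, hpolar]
    ring
  let Q : QuadraticForm F (ι → F) := QuadraticMap.ofPolar Qf
    (fun k z => by rw [hsmul, smul_eq_mul])
    (fun u u' v => by rw [hpl, hpl, hpl, hf.bilinear.add_left])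
    (fun k u v => by rw [hpl, hpl, hf.bilinear.smul_left, smul_eq_mul])
  have hQf : ∀ z, Q z = Qf z := fun z => rfl
  have hQa : Q a = 0 := by
    rw [hQf]; simp only [Qf]
    rw [hf.alternating, zero_mul, zero_add, proj, hab, hf.alternating, one_smul, zero_smul,
      add_zero, vec_add_self, h.zero hf]
  have hQb : Q b = 0 := by
    rw [hQf]; simp only [Qf]
    rw [hf.alternating, mul_zero, zero_add, proj, hba, hf.alternating, one_smul, zero_smul,
      add_zero, vec_add_self, h.zero hf]
  have hQc : ∀ z, f z a = 0 → Q z = c z := fun z hz => by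
    rw [hQf]; simp only [Qf]
    rw [hz, zero_mul, zero_add, proj, hz, zero_smul, add_zero, h.ext _ _ hz]
  have hsing : ∀ p, InP L a p → Q p = 0 := by
    intro p hp
    by_cases hpa : f p a = 0
    · by_cases hmem : p ∈ Submodule.span F {a}
      · obtain ⟨k, rfl⟩ := Submodule.mem_span_singleton.1 hmem
        rw [QuadraticMap.map_smul, hQa, smul_zero]
      · rw [hQc p hpa]
        simpa using hZ a (InP.refl L a) c h p hp hpa hmem 1
    · have h1 : f ((f p a)⁻¹ • p) a = 1 := by
        rw [hf.bilinear.smul_left, inv_mul_cancel₀ hpa]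
      have h2 := h.norm_eq hf hb hab h4 hZ (hp.smul (inv_ne_zero hpa)) h1
      have h3 : Q ((f p a)⁻¹ • p) = 0 := by
        rw [hQf]; simp only [Qf]
        rw [h1, one_mul, h2]
      rw [QuadraticMap.map_smul, smul_eq_mul] at h3
      exact (mul_eq_zero.1 h3).resolve_left (mul_ne_zero (inv_ne_zero hpa) (inv_ne_zero hpa))
  have hinv : ∀ g ∈ L, ∀ z, Q (ap g z) = Q z := by
    intro g hg
    have hg' := mem_isom_iff.1 (hL hg)
    let D : (ι → F) → F := fun z => Q (ap g z) + Q z
    have hDadd : ∀ y z, D (y + z) = D y + D z := fun y z => by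
      simp only [D, hQf, ap_add, hpolar, hg']
      linear_combination (f y z) * CharTwo.two_eq_zero (R := F)
    have hDsmul : ∀ (k : F) z, D (k • z) = k * k * D z := fun k z => by
      simp only [D, hQf, ap_smul, hsmul]
      ring
    have hDP : ∀ p, InP L a p → D p = 0 := fun p hp => by
      simp only [D, hsing p hp, hsing _ (hp.map hg), add_zero]
    have hDa := hDP a (InP.refl L a)
    have hDb := hDP b hbP
    intro z
    apply CharTwo.add_eq_zero.1
    change D z = 0
    set w := proj f a b z with hw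
    have hwa := proj_perp_left hf hab z
    have hDw : D w = 0 := by
      have h1 := hDP _ (hbP.map (h.mem w hwa))
      rw [ap_E hf hwa, hba, one_smul, hDadd, hDadd, hDb, hDsmul, hDa, mul_zero, zero_add,
        add_zero] at h1
      exact h1
    have hz : z = w + (f z b • a + f z a • b) := by
      rw [hw, proj]
      ext i
      simp only [Pi.add_apply, Pi.smul_apply, smul_eq_mul]
      linear_combination -(f z b * a i + f z a * b i) * CharTwo.two_eq_zero (R := F)
    rw [hz, hDadd, hDadd, hDsmul, hDsmul, hDw, hDa, hDb, mul_zero, mul_zero, add_zero, add_zero]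
  refine ⟨Q, b, hbP, hab, hpl, hinv, hQa, hQb, fun p hp => ⟨hsing p hp, ?_⟩⟩
  obtain ⟨g, hg, μ, hμ, rfl⟩ := hp
  have hg' := mem_isom_iff.1 (hL (inv_mem hg))
  have hc := (h.map hf hL hg).smul hf hμ
  refine ⟨fun v hv => ?_, fun v w _ _ => by rw [hQf, hQf, hQf, hpolar], fun v k hv => ?_⟩
  · have hv' : f (ap g⁻¹ (μ • v)) a = 0 := by
      rw [hf.bilinear.smul_right] at hv
      have h1 := hg' (μ • v) (ap g a)
      rw [ap_inv_ap, hf.bilinear.smul_left, (mul_eq_zero.1 hv).resolve_left hμ, mul_zero] at h1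
      exact h1
    have := hc.mem v hv
    rwa [← hQc _ hv', hinv _ (inv_mem hg), QuadraticMap.map_smul, smul_eq_mul,
      mul_div_cancel_left₀ _ (mul_ne_zero hμ hμ)] at this
  · rw [hQf, hQf, hpolar, hsmul, ← hQf (μ • ap g a), QuadraticMap.map_smul, hinv g hg, hQa,
      smul_zero, mul_zero, hf.bilinear.smul_right, hv, mul_zero, add_zero, add_zero]

end CfsgLib.SpOverX
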