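import Cfsg.Agent.Lib.SpOverX.Orth
import Cfsg.Agent.Lib.Omega.IsometryParity

/-!
Dimension four over two elements: the two orthogonal forms.
-/

set_option autoImplicit false
set_option linter.unusedSectionVars false

namespace CfsgLib.SpOverX

open Matrix CfsgLib.Geometric CfsgLib.Geometric.Symp

variable {ι : Type} [Fintype ι] [DecidableEq ι] {F : Type*} [Field F] [CharP F 2]
  {f : (ι → F) → (ι → F) → F} (hf : Cfsg.Geo.IsSymplecticForm f)
  {L : Subgroup (GL ι F)} {a b : ι → F} {Q : QuadraticForm F (ι → F)}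

omit [CharP F 2] in
lemma two_values [Finite F] (h2 : Nat.card F = 2) (x : F) : x = 0 ∨ x = 1 := by
  classical
  haveI := Fintype.ofFinite F
  by_contra hx
  push Not at hx
  have : ({0, 1, x} : Finset F).card ≤ 2 := by
    rw [← h2, Nat.card_eq_fintype_card]; exact Finset.card_le_univ _
  rw [Finset.card_insert_of_notMem (by simp [eq_comm, hx.1]), Finset.card_insert_of_notMem
    (by simp [eq_comm, hx.2]), Finset.card_singleton] at this
  omega

include hf

/-- Expansion in two hyperbolic pairs. -/
lemma decomp_four (h4 : Fintype.card ι = 4) {d e : ι → F} (hab : f a b = 1) (hde : f d e = 1)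
    (had : f a d = 0) (hae : f a e = 0) (hbd : f b d = 0) (hbe : f b e = 0) (z : ι → F) :
    z = f z b • a + f z a • b + (f z e • d + f z d • e) := by
  have hba : f b a = 1 := by rw [symm hf]; exact hab
  have hed : f e d = 1 := by rw [symm hf]; exact hde
  have hda : f d a = 0 := by rw [symm hf]; exact had
  have hea : f e a = 0 := by rw [symm hf]; exact hae
  have hdb : f d b = 0 := by rw [symm hf]; exact hbd
  have heb : f e b = 0 := by rw [symm hf]; exact hbe
  set r := z + (f z b • a + f z a • b + (f z e • d + f z d • e)) with hr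
  have hperp : ∀ i, f r (![a, b, d, e] i) = 0 := by
    intro i
    fin_cases i <;>
      simp [hr, hf.bilinear.add_left, hf.bilinear.smul_left, hf.alternating, hab, hba, hde, hed,
        had, hda, hae, hea, hbd, hdb, hbe, heb, CharTwo.add_self_eq_zero]
  have hli : LinearIndependent F ![a, b, d, e] := by
    rw [Fintype.linearIndependent_iff]
    intro g hg
    rw [Fin.sum_univ_four] at hg
    simp only [Matrix.cons_val_zero, Matrix.cons_val_one, Matrix.cons_val] at hg
    have k : ∀ y, g 0 * f a y + g 1 * f b y + g 2 * f d y + g 3 * f e y = 0 := fun y => by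
      rw [← hf.bilinear.smul_left, ← hf.bilinear.smul_left, ← hf.bilinear.smul_left,
        ← hf.bilinear.smul_left, ← hf.bilinear.add_left, ← hf.bilinear.add_left,
        ← hf.bilinear.add_left, hg, zero_left hf]
    intro i
    fin_cases i
    · simpa [hab, hdb, heb, hf.alternating] using k b
    · simpa [hba, hda, hea, hf.alternating] using k a
    · simpa [hae, hbe, hde, hf.alternating] using k e
    · simpa [had, hbd, hed, hf.alternating] using k d
  have htop := hli.span_eq_top_of_card_eq_finrank
    (by rw [Fintype.card_fin, Module.finrank_pi, h4])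
  have hr0 : r = 0 := by
    by_contra hne
    obtain ⟨y, hy⟩ := (hf.nondegenerate r hne).2
    apply hy
    have hmem : y ∈ Submodule.span F (Set.range ![a, b, d, e]) := by rw [htop]; trivial
    clear hy
    induction hmem using Submodule.span_induction with
    | mem x hx => obtain ⟨i, rfl⟩ := hx; exact hperp i
    | zero => exact zero_right hf r
    | add x y _ _ h1 h2 => rw [hf.bilinear.add_right, h1, h2, add_zero]
    | smul k x _ h1 => rw [hf.bilinear.smul_right, h1, mul_zero]
  have := congrArg (fun w => w + (f z b • a + f z a • b + (f z e • d + f z d • e))) (hr ▸ hr0)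
  simpa [vec_add_add] using this

/-- The elliptic form: all isometries are products of reflections. -/
lemma FormData.elliptic_gen [Finite F] (D : FormData hf L a b Q) (ha : a ≠ 0)
    (h4 : Fintype.card ι = 4) (h2 : Nat.card F = 2)
    (hW : ∀ v, f v a = 0 → f v b = 0 → Q v = 0 → v = 0) : Forms.reflClosure Q = ⊤ := by
  have hba : f b a = 1 := by rw [symm hf]; exact D.hab
  have hact : ∀ (g : Cfsg.isometryGroup F (⇑Q)) x, OrthGen.act Q g x = ap (g : GL ι F) x :=
    fun _ _ => rfl
  have hsm : ∀ (k : F) (x : ι → F), k ≠ 0 → k • x = x := fun k x hk => by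
    rw [(two_values h2 k).resolve_left hk, one_smul]
  have hpf : ∀ (g : Cfsg.isometryGroup F (⇑Q)) x y,
      f (OrthGen.act Q g x) (OrthGen.act Q g y) = f x y := fun g x y => by
    rw [← D.hpolar, ← D.hpolar]
    exact OrthGen.pf_act g x y
  refine eq_top_iff.2 fun g _ => ?_
  suffices h : ∀ g : Cfsg.isometryGroup F (⇑Q), ∃ k ∈ Forms.reflClosure Q,
      ∀ x, OrthGen.act Q (k * g) x = x by
    obtain ⟨k, hk, hkg⟩ := h g
    have : k * g = 1 := OrthGen.ext_act fun x => by rw [hkg, OrthGen.act_one]
    rw [eq_inv_of_mul_eq_one_right this]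
    exact inv_mem hk
  intro g
  -- bring `g a` to `a`
  have move : ∀ z, z ≠ 0 → Q z = 0 → ∃ k ∈ Forms.reflClosure Q, OrthGen.act Q k z = a := by
    intro z hz hQz
    by_cases hza : f z a = 0
    · refine ⟨1, one_mem _, ?_⟩
      rw [OrthGen.act_one]
      have hw := hW _ (proj_perp_left hf D.hab z) (proj_perp_right hf D.hab z) (by
        rw [proj, hza, zero_smul, add_zero, (D.compl a (InP.refl L a)).2.ext z _ hza, hQz])
      rw [proj, hza, zero_smul, add_zero] at hw
      have hz2 : z = f z b • a := by
        have := congrArg (fun w => w + f z b • a) hw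
        simpa [vec_add_add] using this
      rw [hz2]
      exact hsm _ _ (fun h => hz (by rw [hz2, h, zero_smul]))
    · have hza1 : f z a = 1 := (two_values h2 _).resolve_left hza
      have hQ : Q (z - a) ≠ 0 := by
        rw [sub_eq_add_neg, ← neg_one_smul F a, CharTwo.neg_eq, one_smul, D.Q_add hf, hQz, D.hQa,
          hza1]
        simp
      exact ⟨_, Forms.refl_mem_reflClosure hQ, OrthGen.act_refl_sub Q (by rw [hQz, D.hQa]) hQ⟩
  have hga : OrthGen.act Q g a ≠ 0 := by rw [hact]; exact ap_ne_zero _ ha
  obtain ⟨k₁, hk₁, hk₁a⟩ := move _ hga (by rw [OrthGen.Q_act, D.hQa])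
  set g₁ := k₁ * g with hg₁
  have h1a : OrthGen.act Q g₁ a = a := by rw [hg₁, OrthGen.act_mul, hk₁a]
  set y := OrthGen.act Q g₁ b with hy
  have hya : f y a = 1 := by rw [hy, ← h1a, hpf, hba]
  have hE := D.Q_add hf
  -- bring `g b` to `b`
  obtain ⟨k₂, hk₂, hk₂a, hk₂b⟩ : ∃ k ∈ Forms.reflClosure Q,
      OrthGen.act Q k a = a ∧ OrthGen.act Q k y = b := by
    set w := proj f a b y with hw
    have hwa := proj_perp_left hf D.hab y
    have hnorm := (D.compl a (InP.refl L a)).2.ap_norm hf D.hab hya
    have hQ' : f y b + Q w = 0 := by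
      have := D.hinv _ ((D.compl a (InP.refl L a)).2.mem w hwa) y
      rw [hnorm, hE, FormData.Q_smul hf, D.hQb, D.hQa, hf.bilinear.smul_right, hba, mul_one,
        mul_zero, zero_add, zero_add, hy, OrthGen.Q_act, D.hQb] at this
      exact this
    rw [hQ', zero_smul, add_zero] at hnorm
    by_cases hw0 : Q w = 0
    · have := hW w hwa (proj_perp_right hf D.hab y) hw0
      refine ⟨1, one_mem _, OrthGen.act_one a, ?_⟩
      rw [OrthGen.act_one]
      rw [hw] at this
      rw [this, QuadraticMap.map_zero, E_zero, T_zero_right, ap_one] at hnorm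
      exact hnorm
    · obtain ⟨hE1, hE2⟩ := D.E_eq_R_mul hf (InP.refl L a) hwa hw0
      refine ⟨OrthGen.refl Q hw0 * OrthGen.refl Q (hE2.symm ▸ hw0),
        mul_mem (Forms.refl_mem_reflClosure _) (Forms.refl_mem_reflClosure _), ?_, ?_⟩
      · rw [hact, Subgroup.coe_mul, D.coe_refl hf, D.coe_refl hf, ← hE1, ap_E_self hf hwa]
      · rw [hact, Subgroup.coe_mul, D.coe_refl hf, D.coe_refl hf, ← hE1, hnorm]
  set g₂ := k₂ * g₁ with hg₂
  have h2a : OrthGen.act Q g₂ a = a := by rw [hg₂, OrthGen.act_mul, h1a, hk₂a]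
  have h2b : OrthGen.act Q g₂ b = b := by rw [hg₂, OrthGen.act_mul, ← hy, hk₂b]
  obtain ⟨d, e, hda, hdb, hea, heb, hde⟩ := exists_orth_pair hf D.hab (le_of_eq h4.symm)
  have hne : ∀ x, f x a = 0 → f x b = 0 → x ≠ 0 → Q x = 1 := fun x h1 h2' hx =>
    (two_values h2 _).resolve_left fun h => hx (hW x h1 h2' h)
  have hd0 : d ≠ 0 := fun h => by rw [h, zero_left hf] at hde; exact zero_ne_one hde
  have he0 : e ≠ 0 := fun h => by rw [h, zero_right hf] at hde; exact zero_ne_one hde
  have fixab : ∀ v (hv : Q v ≠ 0), f v a = 0 → f v b = 0 →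
      OrthGen.act Q (OrthGen.refl Q hv) a = a ∧ OrthGen.act Q (OrthGen.refl Q hv) b = b :=
    fun v hv h1 h2' => ⟨OrthGen.act_refl_of_orth Q hv (by rw [OrthGen.pf, D.hpolar, h1]),
      OrthGen.act_refl_of_orth Q hv (by rw [OrthGen.pf, D.hpolar, h2'])⟩
  have keepab : ∀ g' : Cfsg.isometryGroup F (⇑Q), OrthGen.act Q g' a = a →
      OrthGen.act Q g' b = b → ∀ x, f x a = 0 → f x b = 0 →
      f (OrthGen.act Q g' x) a = 0 ∧ f (OrthGen.act Q g' x) b = 0 := by
    intro g' ha' hb' x h1 h2'
    constructor
    · rw [← ha', hpf, h1]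
    · rw [← hb', hpf, h2']
  obtain ⟨k₃, hk₃, h3a, h3b, h3d⟩ : ∃ k ∈ Forms.reflClosure Q,
      OrthGen.act Q k a = a ∧ OrthGen.act Q k b = b ∧ OrthGen.act Q k (OrthGen.act Q g₂ d) = d := by
    obtain ⟨i1, i2⟩ := keepab g₂ h2a h2b d hda hdb
    by_cases heq : OrthGen.act Q g₂ d = d
    · exact ⟨1, one_mem _, OrthGen.act_one a, OrthGen.act_one b, by rw [OrthGen.act_one, heq]⟩
    · have hsub : Q (OrthGen.act Q g₂ d - d) ≠ 0 := by
        have h1 : f (OrthGen.act Q g₂ d - d) a = 0 := by rw [Symp.sub_left hf, i1, hda, sub_zero]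
        have h2' : f (OrthGen.act Q g₂ d - d) b = 0 := by rw [Symp.sub_left hf, i2, hdb, sub_zero]
        rw [hne _ h1 h2' (sub_ne_zero.2 heq)]
        exact one_ne_zero
      obtain ⟨j1, j2⟩ := fixab _ hsub (by rw [Symp.sub_left hf, i1, hda, sub_zero])
        (by rw [Symp.sub_left hf, i2, hdb, sub_zero])
      exact ⟨_, Forms.refl_mem_reflClosure hsub, j1, j2,
        OrthGen.act_refl_sub Q (by rw [OrthGen.Q_act]) hsub⟩
  set g₃ := k₃ * g₂ with hg₃
  have g3a : OrthGen.act Q g₃ a = a := by rw [hg₃, OrthGen.act_mul, h2a, h3a]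
  have g3b : OrthGen.act Q g₃ b = b := by rw [hg₃, OrthGen.act_mul, h2b, h3b]
  have g3d : OrthGen.act Q g₃ d = d := by rw [hg₃, OrthGen.act_mul, h3d]
  have hdv : Q d ≠ 0 := by rw [hne d hda hdb hd0]; exact one_ne_zero
  obtain ⟨k₄, hk₄, h4a, h4b, h4d, h4e⟩ : ∃ k ∈ Forms.reflClosure Q,
      OrthGen.act Q k a = a ∧ OrthGen.act Q k b = b ∧ OrthGen.act Q k d = d ∧
        OrthGen.act Q k (OrthGen.act Q g₃ e) = e := by
    obtain ⟨i1, i2⟩ := keepab g₃ g3a g3b e hea heb
    have hfd : f (OrthGen.act Q g₃ e) d = 1 := by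
      conv_lhs => arg 2; rw [← g3d]
      rw [hpf, symm hf, hde]
    have hdec := decomp_four hf h4 D.hab hde (by rw [symm hf, hda]) (by rw [symm hf, hea])
      (by rw [symm hf, hdb]) (by rw [symm hf, heb]) (OrthGen.act Q g₃ e)
    rw [i1, i2, hfd, zero_smul, zero_smul, zero_add, zero_add, one_smul] at hdec
    rcases two_values h2 (f (OrthGen.act Q g₃ e) e) with h | h
    · rw [h, zero_smul, zero_add] at hdec
      exact ⟨1, one_mem _, OrthGen.act_one a, OrthGen.act_one b, OrthGen.act_one d,
        by rw [OrthGen.act_one, hdec]⟩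
    · rw [h, one_smul] at hdec
      obtain ⟨j1, j2⟩ := fixab d hdv hda hdb
      refine ⟨_, Forms.refl_mem_reflClosure hdv, j1, j2,
        OrthGen.act_refl_of_orth Q hdv (by rw [OrthGen.pf, D.hpolar, hf.alternating]), ?_⟩
      rw [hdec, hact, D.coe_refl hf, R, ap_T hf, hne d hda hdb hd0, inv_one, one_mul,
        hf.bilinear.add_left, hf.alternating, symm hf e d, hde, zero_add, one_smul,
        add_comm d e, vec_add_add]
  refine ⟨k₄ * k₃ * k₂ * k₁, mul_mem (mul_mem (mul_mem hk₄ hk₃) hk₂) hk₁, fun x => ?_⟩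
  rw [show k₄ * k₃ * k₂ * k₁ * g = k₄ * g₃ by rw [hg₃, hg₂, hg₁]; group]
  rw [decomp_four hf h4 D.hab hde (by rw [symm hf, hda]) (by rw [symm hf, hea])
    (by rw [symm hf, hdb]) (by rw [symm hf, heb]) x]
  simp only [OrthGen.act_add, OrthGen.act_smul, OrthGen.act_mul, g3a, g3b, g3d, h4a, h4b, h4d, h4e]

/-- The elliptic form: no singular vector splits. -/
lemma FormData.elliptic_splits [Finite F] (D : FormData hf L a b Q) (h2 : Nat.card F = 2)
    (hW : ∀ v, f v a = 0 → f v b = 0 → Q v = 0 → v = 0) : Splits f L a Q := by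
  intro p v hp hv hQv
  left
  obtain ⟨g, hg, μ, hμ, rfl⟩ := hp
  rw [(two_values h2 μ).resolve_left hμ, one_smul] at *
  have hg' := mem_isom_iff.1 (D.le_isom (inv_mem hg))
  set v' := ap g⁻¹ v with hv'
  have h1 : f v' a = 0 := by
    have := hg' v (ap g a)
    rwa [ap_inv_ap, hv] at this
  have h2' : Q v' = 0 := by rw [hv', D.hinv _ (inv_mem hg), hQv]
  have h3 := hW _ (proj_perp_left hf D.hab v') (proj_perp_right hf D.hab v') (by
    rw [proj, h1, zero_smul, add_zero, (D.compl a (InP.refl L a)).2.ext v' _ h1, h2'])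
  rw [proj, h1, zero_smul, add_zero] at h3
  refine Submodule.mem_span_singleton.2 ⟨f v' b, ?_⟩
  have h4 : v' = f v' b • a := by
    have := congrArg (fun w => w + f v' b • a) h3
    simpa [vec_add_add] using this
  rw [← ap_smul, ← h4, hv', ap_ap_inv]

/-- The rank of `E p w c - 1` for `w ∉ F p` is two. -/
lemma rank_E_sub_one {p w : ι → F} {c : F} (hp : p ≠ 0) (hwp : f w p = 0)
    (hw : w ∉ Submodule.span F {p}) : ((E hf p w c : Matrix ι ι F) - 1).rank = 2 := by
  set A := ((E hf p w c : Matrix ι ι F) - 1).mulVecLin with hA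
  have hAz : ∀ z, A z = f z p • w + (f z w + c * f z p) • p := by
    intro z
    rw [hA, Matrix.mulVecLin_apply, Matrix.sub_mulVec, Matrix.one_mulVec, ← ap_def,
      ap_E hf hwp, add_assoc, add_sub_cancel_left]
  have hp' : p ∉ Submodule.span F {w} := by
    intro hmem
    obtain ⟨k, hk⟩ := Submodule.mem_span_singleton.1 hmem
    have hk0 : k ≠ 0 := fun h => hp (by rw [← hk, h, zero_smul])
    exact hw (Submodule.mem_span_singleton.2 ⟨k⁻¹, by rw [← hk, inv_smul_smul₀ hk0]⟩)
  obtain ⟨z₁, hz₁, hz₁p⟩ := exists_dual_one hf hp' 1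
  obtain ⟨z₂, hz₂, hz₂w⟩ := exists_dual_one hf hw 1
  have hrange : LinearMap.range A = Submodule.span F (Set.range ![w, p]) := by
    apply le_antisymm
    · rintro _ ⟨z, rfl⟩
      rw [hAz]
      exact add_mem (Submodule.smul_mem _ _ (Submodule.subset_span ⟨0, rfl⟩))
        (Submodule.smul_mem _ _ (Submodule.subset_span ⟨1, rfl⟩))
    · rw [Submodule.span_le]
      have e2 : A z₂ = p := by
        rw [hAz, (mem_perp_span hf).1 hz₂, hz₂w, zero_smul, zero_add, mul_zero, add_zero, one_smul]
      rintro _ ⟨i, rfl⟩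
      fin_cases i
      · refine ⟨z₁ + c • z₂, ?_⟩
        rw [map_add, map_smul, e2, hAz, hz₁p, (mem_perp_span hf).1 hz₁, one_smul, mul_one,
          zero_add, add_assoc, vec_add_self, add_zero]
        rfl
      · exact ⟨z₂, e2⟩
  have hli : LinearIndependent F ![w, p] := by
    rw [LinearIndependent.pair_iff]
    intro s t hst
    by_cases ht : t = 0
    · rw [ht, zero_smul, add_zero] at hst
      rcases smul_eq_zero.1 hst with h | h
      · exact ⟨h, ht⟩
      · exact absurd (h ▸ zero_mem _) hw
    · exfalso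
      refine hp' (Submodule.mem_span_singleton.2 ⟨-(t⁻¹ * s), ?_⟩)
      apply smul_right_injective _ ht
      simp only [neg_smul, smul_neg, smul_smul, mul_inv_cancel_left₀ ht]
      exact neg_eq_of_add_eq_zero_right hst
  rw [Matrix.rank, ← hA, hrange, finrank_span_eq_card hli, Fintype.card_fin]

/-- The hyperbolic form in dimension four over two elements. -/
theorem FormData.hyperbolic_classify [Finite F] (D : FormData hf L a b Q) (ha : a ≠ 0)
    (h4 : Fintype.card ι = 4) (h2 : Nat.card F = 2) {d : ι → F} (hda : f d a = 0)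
    (hdb : f d b = 0) (hd : d ≠ 0) (hQd : Q d = 0) :
    L = Cfsg.isometryGroup F (⇑Q) ∨
      ∀ g : GL ι F, g ∈ L ↔ g ∈ Cfsg.isometryGroup F (⇑Q) ∧
        Even ((g : Matrix ι ι F) - 1).rank := by
  classical
  have hba : f b a = 1 := by rw [symm hf]; exact D.hab
  have hab' := D.hab
  have hval := two_values h2
  have hdn : d ∉ Submodule.span F {a, b} := by
    intro hmem
    obtain ⟨α, β, h⟩ := Submodule.mem_span_pair.1 hmem
    have e1 : f (α • a + β • b) a = 0 := by rw [h, hda]
    have e2 : f (α • a + β • b) b = 0 := by rw [h, hdb]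
    rw [hf.bilinear.add_left, hf.bilinear.smul_left, hf.bilinear.smul_left, hf.alternating,
      hba, mul_zero, zero_add, mul_one] at e1
    rw [hf.bilinear.add_left, hf.bilinear.smul_left, hf.bilinear.smul_left, hf.alternating,
      D.hab, mul_zero, add_zero, mul_one] at e2
    rw [e1, e2, zero_smul, zero_smul, add_zero] at h
    exact hd h.symm
  obtain ⟨e₀, he₀, he₀d⟩ := exists_dual_one hf hdn 1
  set e := e₀ + Q e₀ • d with he
  have hea : f e a = 0 := by
    rw [he, hf.bilinear.add_left, hf.bilinear.smul_left, he₀ a (Submodule.subset_span (by simp)),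
      hda, mul_zero, add_zero]
  have heb : f e b = 0 := by
    rw [he, hf.bilinear.add_left, hf.bilinear.smul_left, he₀ b (Submodule.subset_span (by simp)),
      hdb, mul_zero, add_zero]
  have hed : f e d = 1 := by
    rw [he, hf.bilinear.add_left, hf.bilinear.smul_left, he₀d, hf.alternating, mul_zero, add_zero]
  have hde : f d e = 1 := by rw [symm hf]; exact hed
  have hQe : Q e = 0 := by
    rw [he, D.Q_add hf, FormData.Q_smul hf, hQd, hf.bilinear.smul_right, he₀d, mul_one, mul_zero,
      add_zero, CharTwo.add_self_eq_zero]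
  have dec := decomp_four hf h4 D.hab hde (by rw [symm hf, hda]) (by rw [symm hf, hea])
    (by rw [symm hf, hdb]) (by rw [symm hf, heb])
  have hQde : Q (d + e) = 1 := by rw [D.Q_add hf, hQd, hQe, hde, zero_add, zero_add]
  set u := d + e with hu
  have hu0 : Q u ≠ 0 := by rw [hQde]; exact one_ne_zero
  set r := R hf Q u with hr
  have hrap : ∀ x, ap r x = x + (f x d + f x e) • u := fun x => by
    rw [hr, R, ap_T hf, hQde, inv_one, one_mul, hu, hf.bilinear.add_right]
  have hra : ap r a = a := by
    rw [hrap, symm hf a d, hda, symm hf a e, hea, add_zero, zero_smul, add_zero]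
  have hrb : ap r b = b := by
    rw [hrap, symm hf b d, hdb, symm hf b e, heb, add_zero, zero_smul, add_zero]
  have hrd : ap r d = e := by
    rw [hrap, hf.alternating, hde, zero_add, one_smul, hu, ← add_assoc, vec_add_self, zero_add]
  have hO : ∀ {g : GL ι F}, g ∈ Cfsg.isometryGroup F (⇑Q) → ∀ x, Q (ap g x) = Q x :=
    fun hg x => hg x x
  have hpf : ∀ {g : GL ι F}, g ∈ Cfsg.isometryGroup F (⇑Q) → ∀ x y, f (ap g x) (ap g y) = f x y :=
    fun hg x y => by
      rw [← D.hpolar, ← D.hpolar, QuadraticMap.polar, QuadraticMap.polar, ← ap_add, hO hg, hO hg,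
        hO hg]
  have hLO : ∀ g ∈ L, g ∈ Cfsg.isometryGroup F (⇑Q) := fun g hg => fun v _ => D.hinv g hg v
  have hrO := D.R_mem hf hu0
  have hca := (D.compl a (InP.refl L a)).2
  have inL : ∀ z, z ≠ 0 → Q z = 0 → ∃ h ∈ L, ap h a = z := by
    intro z hz hQz
    obtain ⟨h, hh, μ, hμ, rfl⟩ := D.inP_of_singular hf hz hQz
    exact ⟨h, hh, by rw [(hval μ).resolve_left hμ, one_smul]⟩
  have stabab : ∀ g ∈ Cfsg.isometryGroup F (⇑Q), ap g a = a → ap g b = b → g = 1 ∨ g = r := by
    intro g hg hga hgb
    have hfa : ∀ x, f (ap g x) a = f x a := fun x => by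
      conv_lhs => arg 2; rw [← hga]
      exact hpf hg x a
    have hfb : ∀ x, f (ap g x) b = f x b := fun x => by
      conv_lhs => arg 2; rw [← hgb]
      exact hpf hg x b
    have mid : ∀ x, f x a = 0 → f x b = 0 → Q x = 0 → x = 0 ∨ x = d ∨ x = e := by
      intro x hxa hxb hx
      have hd' := dec x
      rw [hxa, hxb, zero_smul, zero_smul, zero_add, zero_add] at hd'
      rcases hval (f x e) with h | h <;> rcases hval (f x d) with h' | h' <;>
        rw [h, h'] at hd'
      · left; simpa using hd'
      · right; right; simpa using hd'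
      · right; left; simpa using hd'
      · exfalso
        rw [hd', one_smul, one_smul, hQde] at hx
        exact one_ne_zero hx
    have hgd : ap g d = d ∨ ap g d = e := by
      rcases mid (ap g d) (by rw [hfa, hda]) (by rw [hfb, hdb]) (by rw [hO hg, hQd]) with h | h
      · exact absurd h (ap_ne_zero g hd)
      · exact h
    have finish : ∀ k ∈ Cfsg.isometryGroup F (⇑Q), ap k a = a → ap k b = b → ap k d = d → k = 1 := by
      intro k hk hka hkb hkd
      have hkfa : f (ap k e) a = 0 := by
        conv_lhs => arg 2; rw [← hka]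
        rw [hpf hk, hea]
      have hkfb : f (ap k e) b = 0 := by
        conv_lhs => arg 2; rw [← hkb]
        rw [hpf hk, heb]
      have hkfd : f (ap k e) d = 1 := by
        conv_lhs => arg 2; rw [← hkd]
        rw [hpf hk, hed]
      have hke : ap k e = e := by
        rcases mid (ap k e) hkfa hkfb (by rw [hO hk, hQe]) with h | h | h
        · rw [h, zero_left hf] at hkfd; exact absurd hkfd zero_ne_one
        · rw [h, hf.alternating] at hkfd; exact absurd hkfd zero_ne_one
        · exact h
      refine gl_ext fun x => ?_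
      rw [ap_one, dec x, ap_add, ap_add, ap_add, ap_smul, ap_smul, ap_smul, ap_smul, hka, hkb,
        hkd, hke]
    rcases hgd with h | h
    · exact Or.inl (finish g hg hga hgb h)
    · right
      have := finish (r * g) (mul_mem hrO hg) (by rw [ap_mul, hga, hra]) (by rw [ap_mul, hgb, hrb])
        (by rw [ap_mul, h, ← hrd, ← ap_mul, R_sq, ap_one])
      calc g = r * r * g := by rw [R_sq, one_mul]
        _ = r * (r * g) := mul_assoc _ _ _
        _ = r := by rw [this, mul_one]
  have fixb : ∀ g ∈ Cfsg.isometryGroup F (⇑Q), ap g a = a →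
      ∃ w, f w a = 0 ∧ ap (E hf a w (Q w) * g) b = b := by
    intro g hg hga
    set y := ap g b with hy
    have hya : f y a = 1 := by
      rw [hy]
      conv_lhs => arg 2; rw [← hga]
      rw [hpf hg, hba]
    have hwa := proj_perp_left hf D.hab y
    refine ⟨proj f a b y, hwa, ?_⟩
    have hnorm := hca.ap_norm hf D.hab hya
    have h0 : f y b + Q (proj f a b y) = 0 := by
      have := D.hinv _ (hca.mem _ hwa) y
      rw [hnorm, D.Q_add hf, FormData.Q_smul hf, D.hQb, D.hQa, hf.bilinear.smul_right, hba,
        mul_one, mul_zero, zero_add, zero_add, hy, hO hg, D.hQb] at this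
      exact this
    rw [ap_mul, ← hy, hnorm, h0, zero_smul, add_zero]
  have cover : ∀ g ∈ Cfsg.isometryGroup F (⇑Q), g ∈ L ∨ g * r ∈ L := by
    intro g hg
    obtain ⟨h, hh, hha⟩ := inL (ap g a) (ap_ne_zero g ha) (by rw [hO hg, D.hQa])
    have hgO : h⁻¹ * g ∈ Cfsg.isometryGroup F (⇑Q) := mul_mem (inv_mem (hLO h hh)) hg
    obtain ⟨w, hw, hwb⟩ := fixb _ hgO (by rw [ap_mul, ← hha, ap_inv_ap])
    have hk : E hf a w (Q w) ∈ L := hca.mem w hw
    rcases stabab _ (mul_mem (hLO _ hk) hgO)
      (by rw [ap_mul, ap_mul, ← hha, ap_inv_ap, ap_E_self hf hw]) hwb with h1 | h1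
    · left
      have := eq_inv_of_mul_eq_one_right h1
      rw [inv_mul_eq_iff_eq_mul] at this
      rw [this]; exact mul_mem hh (inv_mem hk)
    · right
      have e1 : g = h * ((E hf a w (Q w))⁻¹ * r) := by rw [← h1]; group
      rw [e1, mul_assoc, mul_assoc, R_sq, mul_one]
      exact mul_mem hh (inv_mem hk)
  by_cases hrL : r ∈ L
  · left
    refine le_antisymm hLO fun g hg => ?_
    rcases cover g hg with h | h
    · exact h
    · have := mul_mem h hrL
      rwa [mul_assoc, R_sq, mul_one] at this
  right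
  -- no reflection lies in `L`
  have hperp : ∀ v, Q v ≠ 0 → ∃ x, x ≠ 0 ∧ Q x = 0 ∧ f x v = 0 := by
    intro v hv
    rcases hval (f v a) with h | h
    · exact ⟨a, ha, D.hQa, by rw [symm hf]; exact h⟩
    rcases hval (f v b) with h' | h'
    · exact ⟨b, fun h0 => by rw [h0, zero_right hf] at hab'; exact zero_ne_one hab', D.hQb,
        by rw [symm hf]; exact h'⟩
    have hb1 : v = a + b + (f v e • d + f v d • e) := by
      conv_lhs => rw [dec v]
      rw [h, h', one_smul, one_smul]
    rcases hval (f v e) with h3 | h3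
    · rcases hval (f v d) with h4' | h4'
      · exact ⟨d, hd, hQd, by rw [symm hf]; exact h4'⟩
      · refine ⟨e, fun h0 => by rw [h0, zero_right hf] at hde; exact zero_ne_one hde, hQe, ?_⟩
        rw [symm hf]; exact h3
    · refine ⟨e + a, fun h0 => ?_, ?_, ?_⟩
      · have := congrArg (fun x => f x d) h0
        simp only [hf.bilinear.add_left, zero_left hf, hed, symm hf a d, hda, add_zero] at this
        exact one_ne_zero this
      · rw [D.Q_add hf, hQe, D.hQa, hea]; simp
      · rw [hf.bilinear.add_left, symm hf e v, h3, symm hf a v, h, CharTwo.add_self_eq_zero]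
  have hR : ∀ v, Q v ≠ 0 → R hf Q v ∉ L := by
    intro v hv hvL
    apply hrL
    obtain ⟨x, hx, hQx, hxv⟩ := hperp v hv
    obtain ⟨h, hh, hha⟩ := inL x hx hQx
    set v' := ap h⁻¹ v with hv'
    have hv'a : f v' a = 0 := by
      have := hpf (hLO _ (inv_mem hh)) v x
      rw [← hha, ap_inv_ap, hha, symm hf v x, hxv] at this
      exact this
    have hQv' : Q v' = 1 := by
      rw [hv', D.hinv _ (inv_mem hh), (hval (Q v)).resolve_left hv]
    have hv'e : v' = f v' b • a + u := by
      have hd' := dec v'
      rw [hv'a, zero_smul, add_zero] at hd'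
      have hQ := congrArg (fun x => Q x) hd'
      simp only [D.Q_add hf, FormData.Q_smul hf, D.hQa, hQd, hQe, hf.bilinear.smul_left,
        hf.bilinear.smul_right, hf.bilinear.add_right, hde, symm hf a d, hda, symm hf a e, hea,
        hQv', mul_zero, zero_add, add_zero, mul_one] at hQ
      rcases hval (f v' e) with h' | h' <;> rcases hval (f v' d) with h'' | h'' <;>
        rw [h', h''] at hQ hd'
      · simp at hQ
      · simp at hQ
      · simp at hQ
      · rw [one_smul, one_smul] at hd'
        exact hd'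
    have h1 : h⁻¹ * R hf Q v * h ∈ L := mul_mem (mul_mem (inv_mem hh) hvL) hh
    have h2 : h⁻¹ * R hf Q v * h = R hf Q v' := by
      conv_lhs => arg 2; rw [← inv_inv h]
      rw [R, conj_T hf (D.le_isom (inv_mem hh)), R, hv', D.hinv _ (inv_mem hh)]
    rw [h2] at h1
    have hmove : ap (E hf a (f v' b • d) (Q (f v' b • d))) v' = u := by
      have hda' : f (f v' b • d) a = 0 := by rw [hf.bilinear.smul_left, hda, mul_zero]
      rw [ap_E hf hda', hv'a, zero_smul, mul_zero, add_zero, add_zero, hf.bilinear.smul_right]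
      have hvd : f v' d = 1 := by
        rw [hv'e, hf.bilinear.add_left, hf.bilinear.smul_left, symm hf a d, hda, mul_zero, zero_add,
          hu, hf.bilinear.add_left, hf.alternating, hed, zero_add]
      rw [hvd, mul_one]
      nth_rw 1 [hv'e]
      rw [add_comm _ u, vec_add_add]
    have hkL := hca.mem (f v' b • d) (by rw [hf.bilinear.smul_left, hda, mul_zero])
    have h3 := mul_mem (mul_mem hkL h1) (inv_mem hkL)
    rw [R, conj_T hf (D.le_isom hkL), hmove, hQv'] at h3
    rwa [hr, R, hQde]
  have hsub : ∀ g : GL ι F, ∀ hg : g ∈ Cfsg.isometryGroup F (⇑Q),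
      (Even ((g : Matrix ι ι F) - 1).rank ↔
        Forms.dicksonSign (⟨g, hg⟩ : Cfsg.isometryGroup F (⇑Q)) = 1) := by
    intro g hg
    have h : Forms.subOne (⟨g, hg⟩ : Cfsg.isometryGroup F (⇑Q))
        = ((g : Matrix ι ι F) - 1).mulVecLin := by
      refine LinearMap.ext fun v => ?_
      rw [Forms.subOne, LinearMap.sub_apply, Matrix.toLin'_apply, LinearMap.id_apply,
        Matrix.mulVecLin_apply, Matrix.sub_mulVec, Matrix.one_mulVec]
    rw [Forms.dicksonSign, h, Matrix.rank]
    exact ⟨fun h1 => h1.neg_one_pow, fun h1 => (neg_one_pow_eq_one_iff_even (by decide)).1 h1⟩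
  have rank_inv : ∀ g : GL ι F,
      (((g⁻¹ : GL ι F) : Matrix ι ι F) - 1).rank = ((g : Matrix ι ι F) - 1).rank := by
    intro g
    have h1 : ((g⁻¹ : GL ι F) : Matrix ι ι F) - 1
        = ((g⁻¹ : GL ι F) : Matrix ι ι F) * (-((g : Matrix ι ι F) - 1)) := by
      rw [neg_sub, mul_sub, mul_one, ← Units.val_mul, inv_mul_cancel, Units.val_one]
    rw [h1, Matrix.rank_mul_eq_right_of_isUnit_det _ _
      ((Matrix.isUnit_iff_isUnit_det _).1 (Units.isUnit g⁻¹)),
      show -((g : Matrix ι ι F) - 1) = (g : Matrix ι ι F) - 1 from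
        Matrix.ext fun i j => CharTwo.neg_eq _]
  have even_L : ∀ g ∈ L, Even ((g : Matrix ι ι F) - 1).rank := by
    intro g hg
    have hgO := hLO g hg
    by_cases hfix : ∃ x, x ≠ 0 ∧ Q x = 0 ∧ ap g x = x
    · obtain ⟨x, hx, hQx, hgx⟩ := hfix
      obtain ⟨h, hh, hha⟩ := inL x hx hQx
      have hkL : h⁻¹ * g * h ∈ L := mul_mem (mul_mem (inv_mem hh) hg) hh
      have hka : ap (h⁻¹ * g * h) a = a := by
        rw [ap_mul, ap_mul, hha, hgx, ← hha, ap_inv_ap]
      obtain ⟨w, hw, hwb⟩ := fixb _ (hLO _ hkL) hka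
      have hEL := hca.mem w hw
      rcases stabab _ (hLO _ (mul_mem hEL hkL)) (by rw [ap_mul, hka, ap_E_self hf hw]) hwb with
        h1 | h1
      · have hEE : E hf a w (Q w) * E hf a w (Q w) = 1 := by
          rw [E_mul_same hf hw, CharTwo.add_self_eq_zero, T_zero_right]
        have hk : h⁻¹ * g * h = E hf a w (Q w) := by
          rw [← one_mul (h⁻¹ * g * h), ← hEE, mul_assoc, h1, mul_one]
        have hrk : ((g : Matrix ι ι F) - 1).rank
            = (((E hf a w (Q w)) : Matrix ι ι F) - 1).rank := by
          rw [← hk, Units.val_mul, Units.val_mul]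
          have : ((h⁻¹ : GL ι F) : Matrix ι ι F) * (g : Matrix ι ι F) * (h : Matrix ι ι F) - 1
              = ((h⁻¹ : GL ι F) : Matrix ι ι F) * ((g : Matrix ι ι F) - 1) * (h : Matrix ι ι F) := by
            rw [mul_sub, sub_mul, mul_one, ← Units.val_mul h⁻¹ h, inv_mul_cancel, Units.val_one]
          rw [this, Matrix.rank_mul_eq_left_of_isUnit_det _ _
              ((Matrix.isUnit_iff_isUnit_det _).1 h.isUnit),
            Matrix.rank_mul_eq_right_of_isUnit_det _ _
              ((Matrix.isUnit_iff_isUnit_det _).1 (Units.isUnit h⁻¹))]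
        rw [hrk]
        by_cases hws : w ∈ Submodule.span F {a}
        · obtain ⟨k, rfl⟩ := Submodule.mem_span_singleton.1 hws
          rw [FormData.Q_smul hf, D.hQa, mul_zero, ← zero_add (k • a),
            E_add_smul hf (zero_left hf a), E_zero, T_zero_right, Units.val_one, sub_self,
            Matrix.rank_zero]
          exact Even.zero
        · rw [rank_E_sub_one hf ha hw hws]
          exact even_two
      · exact absurd (h1 ▸ mul_mem hEL hkL) hrL
    push Not at hfix
    -- the fixed space contains no singular vector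
    set A := ((g : Matrix ι ι F) - 1).mulVecLin with hA
    have hkerm : ∀ x, x ∈ LinearMap.ker A ↔ ap g x = x := fun x => by
      rw [LinearMap.mem_ker, hA, Matrix.mulVecLin_apply, Matrix.sub_mulVec, Matrix.one_mulVec,
        ← ap_def, sub_eq_zero]
    have hrn := LinearMap.finrank_range_add_finrank_ker A
    rw [Module.finrank_pi, h4] at hrn
    by_cases hK : ∃ v w, v ≠ 0 ∧ w ≠ 0 ∧ v ≠ w ∧ ap g v = v ∧ ap g w = w
    · obtain ⟨v, w, hv, hw, hvw, hgv, hgw⟩ := hK
      have q : ∀ {x}, x ≠ 0 → ap g x = x → Q x = 1 := fun hx hgx =>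
        (hval _).resolve_left fun h => hfix _ hx h hgx
      have pair : ∀ {x y}, x ≠ 0 → y ≠ 0 → x ≠ y → ap g x = x → ap g y = y → f x y = 1 := by
        intro x y hx hy hxy hgx hgy
        have hs : x + y ≠ 0 := fun h => hxy <| by
          have := congrArg (· + y) h
          simpa [vec_add_add] using this
        have := q hs (by rw [ap_add, hgx, hgy])
        rw [D.Q_add hf, q hx hgx, q hy hgy, CharTwo.add_self_eq_zero, zero_add] at this
        exact this
      have hle : LinearMap.ker A ≤ Submodule.span F (Set.range ![v, w]) := by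
        intro x hx
        rw [hkerm] at hx
        by_contra hn
        have hx0 : x ≠ 0 := fun h => hn (h ▸ zero_mem _)
        have hxv : x ≠ v := fun h => hn (h ▸ Submodule.subset_span ⟨0, rfl⟩)
        have hxw : x ≠ w := fun h => hn (h ▸ Submodule.subset_span ⟨1, rfl⟩)
        have hxy : x ≠ v + w := fun h => hn (h ▸ add_mem
          (Submodule.subset_span ⟨0, rfl⟩) (Submodule.subset_span ⟨1, rfl⟩))
        have hs : v + w ≠ 0 := fun h => hvw <| by
          have := congrArg (· + w) h
          simpa [vec_add_add] using this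
        have := pair hx0 hs hxy hx (by rw [ap_add, hgv, hgw])
        rw [hf.bilinear.add_right, pair hx0 hv hxv hx hgv, pair hx0 hw hxw hx hgw,
          CharTwo.add_self_eq_zero] at this
        exact zero_ne_one this
      have hge : Submodule.span F (Set.range ![v, w]) ≤ LinearMap.ker A := by
        rw [Submodule.span_le]
        rintro _ ⟨i, rfl⟩
        rw [SetLike.mem_coe, hkerm]
        fin_cases i
        · exact hgv
        · exact hgw
      have hli : LinearIndependent F ![v, w] := by
        rw [LinearIndependent.pair_iff]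
        intro s t hst
        rcases hval s with rfl | rfl <;> rcases hval t with rfl | rfl
        · exact ⟨rfl, rfl⟩
        · exact absurd (by simpa using hst) hw
        · exact absurd (by simpa using hst) hv
        · exfalso
          rw [one_smul, one_smul] at hst
          have := congrArg (· + w) hst
          exact hvw (by simpa [vec_add_add] using this)
      rw [le_antisymm hle hge, finrank_span_eq_card hli, Fintype.card_fin] at hrn
      rw [Matrix.rank, ← hA, show Module.finrank F (LinearMap.range A) = 2 by omega]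
      exact even_two
    push Not at hK
    by_cases hv0 : ∃ v, v ≠ 0 ∧ ap g v = v
    swap
    · push Not at hv0
      have : LinearMap.ker A = ⊥ := (Submodule.eq_bot_iff _).2 fun x hx => by
        by_contra h0
        exact hv0 x h0 ((hkerm x).1 hx)
      rw [this, finrank_bot, add_zero] at hrn
      rw [Matrix.rank, ← hA, hrn]
      exact ⟨2, rfl⟩
    obtain ⟨v, hv, hgv⟩ := hv0
    have hQv : Q v = 1 := (hval _).resolve_left fun h => hfix v hv h hgv
    have hgI := mem_isom_iff.1 (D.le_isom hg)
    obtain ⟨x, hx, hQx, hxv⟩ := hperp v (by rw [hQv]; exact one_ne_zero)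
    set y := ap g x with hy
    have hy0 : y ≠ 0 := ap_ne_zero g hx
    have hQy : Q y = 0 := by rw [hy, D.hinv g hg, hQx]
    have hyx : y ≠ x := fun h => hfix x hx hQx h
    have hyv : f y v = 0 := by rw [hy]; nth_rw 1 [← hgv]; rw [hgI, hxv]
    have hxvn : x ∉ Submodule.span F {v} := by
      intro hmem
      obtain ⟨k, hk⟩ := Submodule.mem_span_singleton.1 hmem
      rcases hval k with rfl | rfl
      · exact hx (by rw [← hk, zero_smul])
      · rw [one_smul] at hk; rw [← hk, hQv] at hQx; exact one_ne_zero hQx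
    obtain ⟨v₁, hv₁⟩ := (hf.nondegenerate v hv).2
    -- two singular points orthogonal to `v` are not orthogonal to each other
    have hxy : f x y = 1 := by
      refine (hval _).resolve_left fun h0 => ?_
      obtain ⟨x₁, hx₁, hx₁x⟩ := exists_dual_one hf hxvn 1
      have hx₁v : f x₁ v = 0 := (mem_perp_span hf).1 hx₁
      obtain ⟨v₂, hv₂, hv₂v⟩ := exists_dual_one hf
        (U := Submodule.span F {x, x₁}) (x := v) (fun hmem => by
          obtain ⟨α, β, h⟩ := Submodule.mem_span_pair.1 hmem
          have e1 : f (α • x + β • x₁) x = 0 := by rw [h, symm hf v x, hxv]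
          have e2 : f (α • x + β • x₁) x₁ = 0 := by rw [h, symm hf v x₁, hx₁v]
          rw [hf.bilinear.add_left, hf.bilinear.smul_left, hf.bilinear.smul_left, hf.alternating,
            hx₁x, mul_zero, zero_add, mul_one] at e1
          rw [hf.bilinear.add_left, hf.bilinear.smul_left, hf.bilinear.smul_left, hf.alternating,
            symm hf x x₁, hx₁x, mul_zero, add_zero, mul_one] at e2
          rw [e1, e2, zero_smul, zero_smul, add_zero] at h
          exact hv h.symm) 1
      have hd' := decomp_four hf h4 (a := x) (b := x₁) (d := v) (e := v₂)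
        (by rw [symm hf, hx₁x]) (by rw [symm hf, hv₂v]) hxv
        (by rw [symm hf]; exact hv₂ x (Submodule.subset_span (by simp))) hx₁v
        (by rw [symm hf]; exact hv₂ x₁ (Submodule.subset_span (by simp))) y
      rw [symm hf y x, h0, hyv, zero_smul, zero_smul, add_zero, add_zero] at hd'
      have hQ : Q y = f y v₂ * f y v₂ := by
        conv_lhs => rw [hd']
        rw [D.Q_add hf, FormData.Q_smul hf, FormData.Q_smul hf, hQx, hQv, hf.bilinear.smul_left,
          hf.bilinear.smul_right, hxv]
        ring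
      rw [hQy] at hQ
      have hz : f y v₂ = 0 := mul_self_eq_zero.1 hQ.symm
      rw [hz, zero_smul, add_zero] at hd'
      rcases hval (f y x₁) with h | h
      · rw [h, zero_smul] at hd'; exact hy0 hd'
      · rw [h, one_smul] at hd'; exact hyx hd'
    -- the basis `x, y, v, v'`
    have hvn : v ∉ Submodule.span F {x, y} := by
      intro hmem
      obtain ⟨α, β, h⟩ := Submodule.mem_span_pair.1 hmem
      have e1 : f (α • x + β • y) x = 0 := by rw [h, symm hf v x, hxv]
      have e2 : f (α • x + β • y) y = 0 := by rw [h, symm hf v y, hyv]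
      rw [hf.bilinear.add_left, hf.bilinear.smul_left, hf.bilinear.smul_left, hf.alternating,
        symm hf y x, hxy, mul_zero, zero_add, mul_one] at e1
      rw [hf.bilinear.add_left, hf.bilinear.smul_left, hf.bilinear.smul_left, hf.alternating,
        hxy, mul_zero, add_zero, mul_one] at e2
      rw [e1, e2, zero_smul, zero_smul, add_zero] at h
      exact hv h.symm
    obtain ⟨v', hv', hv'v⟩ := exists_dual_one hf hvn 1
    have hxv' : f x v' = 0 := by rw [symm hf]; exact hv' x (Submodule.subset_span (by simp))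
    have hyv' : f y v' = 0 := by rw [symm hf]; exact hv' y (Submodule.subset_span (by simp))
    have dec' := decomp_four hf h4 (a := x) (b := y) (d := v) (e := v') hxy
      (by rw [symm hf, hv'v]) hxv hxv' hyv hyv'
    set z := ap g y with hz
    have hzv : f z v = 0 := by rw [hz]; nth_rw 1 [← hgv]; rw [hgI, hyv]
    have hQz : Q z = 0 := by rw [hz, D.hinv g hg, hQy]
    have hyz : f y z = 1 := by rw [hz, hy, hgI]; exact hxy
    have hzx : f z x = 1 := by
      refine (hval _).resolve_left fun h0 => ?_
      have hzd := dec' z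
      rw [h0, hzv, symm hf z y, hyz, one_smul, zero_smul, zero_smul, add_zero, add_zero] at hzd
      rcases hval (f z v') with h | h
      · rw [h, zero_smul, add_zero] at hzd
        -- `g` would fix `x + y`
        have hfx : ap g (x + y) = x + y := by
          rw [ap_add, ← hy, ← hz, hzd, add_comm]
        have hne : x + y ≠ 0 := fun h' => hyx <| by
          have := congrArg (· + x) h'
          rw [add_comm x y] at this
          simpa [vec_add_add] using this
        by_cases hxyv : x + y = v
        · have := congrArg (fun w => f w x) hxyv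
          simp only [hf.bilinear.add_left, hf.alternating, symm hf y x, hxy, symm hf v x, hxv,
            zero_add] at this
          exact one_ne_zero this
        · exact hK (x + y) v hne hv hxyv hfx hgv
      · rw [h, one_smul] at hzd
        have : Q z = 1 := by
          rw [hzd, D.Q_add hf, hQx, hQv, hxv]; simp
        rw [hQz] at this
        exact zero_ne_one this
    have hzd := dec' z
    rw [hzx, hzv, symm hf z y, hyz, one_smul, one_smul, zero_smul, add_zero] at hzd
    have hzval : f z v' = 1 := by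
      refine (hval _).resolve_left fun h => ?_
      rw [h, zero_smul, add_zero] at hzd
      have : Q z = 1 := by rw [hzd, D.Q_add hf, hQx, hQy, hxy]; simp
      rw [hQz] at this
      exact zero_ne_one this
    rw [hzval, one_smul] at hzd
    have hgz : ap g z = x := by
      rw [hzd, ap_add, ap_add, ← hy, ← hz, hgv, hzd]
      ext i
      simp only [Pi.add_apply]
      linear_combination (y i + v i) * CharTwo.two_eq_zero (R := F)
    set k := g * g * g with hk
    have hkL : k ∈ L := mul_mem (mul_mem hg hg) hg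
    have hkx : ap k x = x := by rw [hk, ap_mul, ap_mul, ← hy, ← hz, hgz]
    have hky : ap k y = y := by rw [hk, ap_mul, ap_mul, ← hz, hgz, ← hy]
    have hkv : ap k v = v := by rw [hk, ap_mul, ap_mul, hgv, hgv, hgv]
    have hkI := mem_isom_iff.1 (D.le_isom hkL)
    have hkv' : ap k v' = v' := by
      have e1 : f (ap k v') x = 0 := by
        nth_rw 1 [← hkx]; rw [hkI, symm hf, hxv']
      have e2 : f (ap k v') y = 0 := by
        nth_rw 1 [← hky]; rw [hkI, symm hf, hyv']
      have e3 : f (ap k v') v = 1 := by nth_rw 1 [← hkv]; rw [hkI, hv'v]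
      have hkd := dec' (ap k v')
      rw [e1, e2, e3, zero_smul, zero_smul, zero_add, zero_add, one_smul] at hkd
      rcases hval (f (ap k v') v') with h | h
      · rwa [h, zero_smul, zero_add] at hkd
      · exfalso
        rw [h, one_smul] at hkd
        refine hR v (by rw [hQv]; exact one_ne_zero) ?_
        have hkR : k = R hf Q v := gl_ext fun w => by
          have hRap : ∀ w, ap (R hf Q v) w = w + f w v • v := fun w => by
            rw [R, ap_T hf, hQv, inv_one, one_mul]
          conv_lhs => rw [dec' w]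
          conv_rhs => rw [hRap w, dec' w]
          simp only [ap_add, ap_smul, hkx, hky, hkv, hkd]
          simp only [hf.bilinear.add_left, hf.bilinear.smul_left, hxv, hyv, hv'v, hf.alternating]
          ext i
          simp only [Pi.add_apply, Pi.smul_apply, smul_eq_mul]
          ring
        rwa [← hkR]
    have hk1 : ∀ w, ap k w = w := fun w => by
      conv_lhs => rw [dec' w]
      simp only [ap_add, ap_smul, hkx, hky, hkv, hkv']
      exact (dec' w).symm
    let B : LinearMap.BilinForm F (ι → F) := LinearMap.mk₂ F f hf.bilinear.add_left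
      hf.bilinear.smul_left hf.bilinear.add_right hf.bilinear.smul_right
    have hev := Omega.even_finrank_fixed_alt B (fun w => hf.alternating w)
      (fun w hw => by
        by_contra h0
        obtain ⟨t, ht⟩ := (hf.nondegenerate w h0).2
        exact ht (hw t))
      (r := 3) (by rw [show ((3 : ℕ) : F) = 2 + 1 by norm_num, CharTwo.two_eq_zero, zero_add]
                   exact one_ne_zero)
      ((g : Matrix ι ι F).mulVecLin) (fun p q => hgI p q) (fun w => by
        show ap g (ap g (ap g w)) = w
        rw [← ap_mul, ← ap_mul]; exact hk1 w)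
    have hAeq : A = (g : Matrix ι ι F).mulVecLin - LinearMap.id := LinearMap.ext fun w => by
      simp [hA, Matrix.sub_mulVec]
    rw [← hAeq] at hev
    rw [Matrix.rank, ← hA]
    obtain ⟨m, hm⟩ := hev
    exact ⟨2 - m, by omega⟩
  intro g
  refine ⟨fun hg => ⟨hLO g hg, even_L g hg⟩, ?_⟩
  rintro ⟨hgO, hev⟩
  rcases cover g hgO with h | h
  · exact h
  exfalso
  have h1 : r * g⁻¹ ∈ L := by
    have := inv_mem h
    rwa [_root_.mul_inv_rev, R_inv hf] at this
  have h2 := (hsub _ (hLO _ h1)).1 (even_L _ h1)
  have heq : (⟨r * g⁻¹, hLO _ h1⟩ : Cfsg.isometryGroup F (⇑Q))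
      = OrthGen.refl Q hu0 * ⟨g⁻¹, inv_mem hgO⟩ := by
    apply Subtype.ext
    simp only [Subgroup.coe_mul, D.coe_refl hf hu0, hr]
  rw [heq, Forms.dicksonSign_refl_mul (D.nondeg hf) hu0,
    (hsub _ (inv_mem hgO)).1 (by rw [rank_inv]; exact hev)] at h2
  exact absurd h2 (by decide)

end CfsgLib.SpOverX
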