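import Cfsg.Agent.Lib.SpOverX.Zero
import Cfsg.Agent.Lib.Forms.Dickson

/-!
The group is the orthogonal group of its form, or the subgroup of the isometries `g` for which
`g - 1` has even rank.
-/

set_option autoImplicit false
set_option linter.unusedSectionVars false

namespace CfsgLib.SpOverX

open Matrix CfsgLib.Geometric CfsgLib.Geometric.Symp

variable {ι : Type} [Fintype ι] [DecidableEq ι] {F : Type*} [Field F] [CharP F 2]
  {f : (ι → F) → (ι → F) → F} (hf : Cfsg.Geo.IsSymplecticForm f)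
  {L : Subgroup (GL ι F)} {a b : ι → F} {Q : QuadraticForm F (ι → F)}

/-- The data produced by the case without transvections. -/
structure FormData (L : Subgroup (GL ι F)) (a b : ι → F) (Q : QuadraticForm F (ι → F)) : Prop where
  le_isom : L ≤ isom f
  hb : InP L a b
  hab : f a b = 1
  hpolar : ∀ u v, QuadraticMap.polar (⇑Q) u v = f u v
  hinv : ∀ g ∈ L, ∀ z, Q (ap g z) = Q z
  hQa : Q a = 0
  hQb : Q b = 0
  compl : ∀ p, InP L a p → Q p = 0 ∧ IsCompl hf L p ⇑Q

/-- The elements `E p v (Q v)` at orbit points. -/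
def gens (L : Subgroup (GL ι F)) (a : ι → F) (Q : QuadraticForm F (ι → F)) : Set (GL ι F) :=
  {g | ∃ p v, InP L a p ∧ f v p = 0 ∧ Q v ≠ 0 ∧ g = E hf p v (Q v)}

/-- The reflection at `u` as a transvection. -/
noncomputable def R (Q : QuadraticForm F (ι → F)) (u : ι → F) : GL ι F := T hf u (Q u)⁻¹

/-- Every singular vector splits off a non-singular one. -/
def Splits (f : (ι → F) → (ι → F) → F) (L : Subgroup (GL ι F)) (a : ι → F)
    (Q : QuadraticForm F (ι → F)) : Prop :=
  ∀ p v, InP L a p → f v p = 0 → Q v = 0 → v ∈ Submodule.span F {p} ∨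
    ∃ x, f x p = 0 ∧ Q x ≠ 0 ∧ Q (v + x) ≠ 0

variable (D : FormData hf L a b Q)

include hf

lemma FormData.Q_add (D : FormData hf L a b Q) (x y : ι → F) : Q (x + y) = Q x + Q y + f x y := by
  rw [← D.hpolar]
  exact QuadraticMap.map_add (⇑Q) x y

lemma FormData.Q_smul (k : F) (x : ι → F) : Q (k • x) = k * k * Q x := by
  rw [QuadraticMap.map_smul, smul_eq_mul]

/-- Every non-zero singular vector is in the orbit. -/
lemma FormData.inP_of_singular (D : FormData hf L a b Q) {z : ι → F} (hz : z ≠ 0) (hQz : Q z = 0) :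
    InP L a z := by
  obtain ⟨-, hc⟩ := D.compl a (InP.refl L a)
  obtain ⟨-, hcb⟩ := D.compl b D.hb
  by_cases hza : f z a = 0
  · set w := proj f a b z with hw
    have hwa := proj_perp_left hf D.hab z
    have hwb := proj_perp_right hf D.hab z
    have hzw : w = z + f z b • a := by rw [hw, proj, hza, zero_smul, add_zero]
    have hzw' : z = w + f z b • a := by rw [hzw, vec_add_add]
    by_cases hw0 : w = 0
    · rw [hzw', hw0, zero_add]
      refine (InP.refl L a).smul fun h => hz ?_
      rw [hzw', hw0, h, zero_smul, add_zero]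
    · have hQw : Q w = 0 := by
        rw [hzw, hc.ext z _ hza, hQz]
      have hwP := hc.zero_point hf hcb D.hab D.hb hwa hwb hw0 hQw
      rw [hzw']
      exact hc.line hf hwP hwa (notMem_span_of_perp hf D.hab hwb hw0) _
  · have hQz1 : Q ((f z a)⁻¹ • z) = 0 := by rw [FormData.Q_smul hf, hQz, mul_zero]
    set z' := (f z a)⁻¹ • z with hz'
    have h1 : f z' a = 1 := by rw [hz', hf.bilinear.smul_left, inv_mul_cancel₀ hza]
    have hE := hc.mem _ (proj_perp_left hf D.hab z')
    have h2 := hc.ap_norm hf D.hab h1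
    have h3 : Q (b + (f z' b + Q (proj f a b z')) • a) = 0 := by rw [← h2, D.hinv _ hE, hQz1]
    rw [D.Q_add hf, FormData.Q_smul hf, D.hQb, D.hQa, hf.bilinear.smul_right, symm hf b a, D.hab,
      mul_zero, zero_add, zero_add, mul_one] at h3
    rw [h3, zero_smul, add_zero] at h2
    have h4 : InP L a z' := by
      have := D.hb.map (inv_mem hE)
      have e : ap (E hf a (proj f a b z') (Q (proj f a b z')))⁻¹ b = z' :=
        (congrArg (ap _) h2.symm).trans (ap_inv_ap _ _)
      rwa [e] at this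
    have := h4.smul hza
    rwa [hz', smul_inv_smul₀ hza] at this

lemma FormData.coe_refl (D : FormData hf L a b Q) {u : ι → F} (hu : Q u ≠ 0) :
    ((OrthGen.refl Q hu : Cfsg.isometryGroup F (⇑Q)) : GL ι F) = R hf Q u := by
  refine gl_ext fun x => ?_
  change OrthGen.act Q (OrthGen.refl Q hu) x = _
  rw [OrthGen.act_refl, R, ap_T hf, OrthGen.pf, D.hpolar, symm hf u x, sub_eq_add_neg]
  ext i
  simp [CharTwo.neg_eq]

lemma FormData.R_mem (D : FormData hf L a b Q) {u : ι → F} (hu : Q u ≠ 0) :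
    R hf Q u ∈ Cfsg.isometryGroup F (⇑Q) :=
  D.coe_refl hf hu ▸ (OrthGen.refl Q hu).2

omit hf in
lemma R_sq (hf : Cfsg.Geo.IsSymplecticForm f) (u : ι → F) : R hf Q u * R hf Q u = 1 := by
  rw [R, T_mul, CharTwo.add_self_eq_zero, T_zero_right]

lemma R_inv (u : ι → F) : (R hf Q u)⁻¹ = R hf Q u := inv_eq_of_mul_eq_one_left (R_sq hf u)

lemma R_smul {u : ι → F} {k : F} (hk : k ≠ 0) : R hf Q (k • u) = R hf Q u := by
  rw [R, R, T_smul, QuadraticMap.map_smul, smul_eq_mul, mul_inv, ← mul_assoc,
    mul_inv_cancel₀ (mul_ne_zero hk hk), one_mul]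

/-- An element `E p v (Q v)` as a product of two reflections. -/
lemma FormData.E_eq_R_mul (D : FormData hf L a b Q) {p v : ι → F} (hp : InP L a p)
    (hv : f v p = 0) (hQv : Q v ≠ 0) :
    E hf p v (Q v) = R hf Q v * R hf Q (v + Q v • p) ∧ Q (v + Q v • p) = Q v := by
  have hQ : Q (v + Q v • p) = Q v := by
    rw [D.Q_add hf, FormData.Q_smul hf, (D.compl p hp).1, hf.bilinear.smul_right, hv]
    ring
  refine ⟨gl_ext fun z => ?_, hQ⟩
  rw [ap_E hf hv, ap_mul, R, R, hQ, ap_T hf, ap_T hf]
  simp only [hf.bilinear.add_left, hf.bilinear.add_right, hf.bilinear.smul_left,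
    hf.bilinear.smul_right, hf.alternating, symm hf p v, hv]
  ext i
  simp only [Pi.add_apply, Pi.smul_apply, smul_eq_mul]
  field_simp
  linear_combination -(Q v * f z v * v i) * CharTwo.two_eq_zero (R := F)

lemma FormData.closure_le (D : FormData hf L a b Q) :
    Subgroup.closure (gens hf L a Q) ≤ L := by
  rw [Subgroup.closure_le]
  rintro _ ⟨p, v, hp, hv, -, rfl⟩
  exact (D.compl p hp).2.mem v hv

lemma FormData.closure_le_orth (D : FormData hf L a b Q) :
    Subgroup.closure (gens hf L a Q) ≤ Cfsg.isometryGroup F (⇑Q) := by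
  rw [Subgroup.closure_le]
  rintro _ ⟨p, v, hp, hv, hQv, rfl⟩
  obtain ⟨h1, h2⟩ := D.E_eq_R_mul hf hp hv hQv
  rw [h1]
  exact mul_mem (D.R_mem hf hQv) (D.R_mem hf (h2.symm ▸ hQv))

lemma FormData.E_mem (D : FormData hf L a b Q) (hsp : Splits f L a Q) {p v : ι → F}
    (hp : InP L a p) (hv : f v p = 0) : E hf p v (Q v) ∈ Subgroup.closure (gens hf L a Q) := by
  have hg : ∀ w, f w p = 0 → Q w ≠ 0 → E hf p w (Q w) ∈ Subgroup.closure (gens hf L a Q) :=
    fun w hw hQw => Subgroup.subset_closure ⟨p, w, hp, hw, hQw, rfl⟩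
  by_cases hQv : Q v ≠ 0
  · exact hg v hv hQv
  push Not at hQv
  rcases hsp p v hp hv hQv with hmem | ⟨x, hx, hQx, hQvx⟩
  · obtain ⟨k, rfl⟩ := Submodule.mem_span_singleton.1 hmem
    rw [hQv, ← zero_add (k • p), E_add_smul hf (zero_left hf p), E_zero, T_zero_right]
    exact one_mem _
  · have hvx : f (v + x) p = 0 := by rw [hf.bilinear.add_left, hv, hx, add_zero]
    have := mul_mem (hg _ hvx hQvx) (hg x hx hQx)
    rw [E_mul hf hvx hx, vec_add_add] at this
    convert this using 2
    rw [D.Q_add hf v x, hf.bilinear.add_left, hf.alternating]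
    linear_combination -(Q x + f v x) * CharTwo.two_eq_zero (R := F)

/-- Reflections normalise the subgroup generated by the elements `E p v (Q v)`. -/
lemma FormData.R_conj (D : FormData hf L a b Q) (ha : a ≠ 0) {u : ι → F} (hu : Q u ≠ 0)
    {g : GL ι F} (hg : g ∈ Subgroup.closure (gens hf L a Q)) :
    R hf Q u * g * R hf Q u ∈ Subgroup.closure (gens hf L a Q) := by
  have hO : ∀ x, Q (ap (R hf Q u) x) = Q x := fun x => D.R_mem hf hu x x
  induction hg using Subgroup.closure_induction with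
  | mem x hx =>
    obtain ⟨p, v, hp, hv, hQv, rfl⟩ := hx
    have hi : R hf Q u ∈ isom f := T_mem_isom hf _ _
    have hEq : R hf Q u * E hf p v (Q v) * R hf Q u
        = E hf (ap (R hf Q u) p) (ap (R hf Q u) v) (Q v) := by
      conv_lhs => arg 2; rw [← R_inv hf u]
      exact E_conj hf hi p v (Q v)
    rw [hEq, ← hO v]
    refine Subgroup.subset_closure ⟨_, _,
      D.inP_of_singular hf (ap_ne_zero _ (hp.ne_zero ha)) ?_, ?_, by rwa [hO], rfl⟩
    · rw [hO, (D.compl p hp).1]
    · rw [mem_isom_iff.1 hi, hv]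
  | one => rw [mul_one, R_sq]; exact one_mem _
  | mul x y _ _ hx hy =>
    have := mul_mem hx hy
    convert this using 1
    rw [show R hf Q u * x * R hf Q u * (R hf Q u * y * R hf Q u)
      = R hf Q u * x * (R hf Q u * R hf Q u) * y * R hf Q u by group, R_sq]
    group
  | inv x _ hx =>
    have := inv_mem hx
    rwa [_root_.mul_inv_rev, _root_.mul_inv_rev, R_inv hf, ← mul_assoc] at this

/-- All reflections are congruent modulo the subgroup generated by the elements `E p v (Q v)`. -/
lemma FormData.R_mul_R [Finite F] (D : FormData hf L a b Q) (ha : a ≠ 0)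
    (h4 : 4 ≤ Fintype.card ι) (hsp : Splits f L a Q) {u u' : ι → F} (hu : Q u ≠ 0)
    (hu' : Q u' ≠ 0) : R hf Q u * R hf Q u' ∈ Subgroup.closure (gens hf L a Q) := by
  set M := Subgroup.closure (gens hf L a Q)
  have hc := (D.compl a (InP.refl L a)).2
  have hba : f b a = 1 := by rw [symm hf]; exact D.hab
  have htr : ∀ x y z, R hf Q x * R hf Q y ∈ M → R hf Q y * R hf Q z ∈ M →
      R hf Q x * R hf Q z ∈ M := fun x y z h1 h2 => by
    have := mul_mem h1 h2
    rwa [show R hf Q x * R hf Q y * (R hf Q y * R hf Q z)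
      = R hf Q x * (R hf Q y * R hf Q y) * R hf Q z by group, R_sq, mul_one] at this
  have hsy : ∀ x y, R hf Q x * R hf Q y ∈ M → R hf Q y * R hf Q x ∈ M := fun x y h1 => by
    have := inv_mem h1
    rwa [_root_.mul_inv_rev, R_inv, R_inv] at this
  have step : ∀ {x p}, Q x ≠ 0 → InP L a p → f x p = 0 → R hf Q x * R hf Q (x + p) ∈ M := by
    intro x p hx hp hxp
    have hp' := hp.smul (inv_ne_zero hx)
    have hxp' : f x ((Q x)⁻¹ • p) = 0 := by rw [hf.bilinear.smul_right, hxp, mul_zero]
    obtain ⟨h1, -⟩ := D.E_eq_R_mul hf hp' hxp' hx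
    rw [smul_inv_smul₀ hx] at h1
    rw [← h1]
    exact D.E_mem hf hsp hp' hxp'
  have conjc : ∀ {g x}, g ∈ M → Q x ≠ 0 → R hf Q (ap g x) * R hf Q x ∈ M := by
    intro g x hg hx
    have hgi := D.le_isom (D.closure_le hf hg)
    have e : R hf Q (ap g x) = g * R hf Q x * g⁻¹ := by
      rw [R, R, conj_T hf hgi, D.hinv g (D.closure_le hf hg)]
    rw [e, show g * R hf Q x * g⁻¹ * R hf Q x = g * (R hf Q x * g⁻¹ * R hf Q x) by group]
    exact mul_mem hg (D.R_conj hf ha hx (inv_mem hg))
  -- reduction to the vectors `b + λ a`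
  have key1 : ∀ x, f x a = 1 → Q x ≠ 0 → R hf Q x * R hf Q (b + Q x • a) ∈ M := by
    intro x hxa hx
    have hg := D.E_mem hf hsp (InP.refl L a) (proj_perp_left hf D.hab x)
    have h2 := hc.ap_norm hf D.hab hxa
    have h1 := conjc hg hx
    rw [h2] at h1
    have h3 : f x b + Q (proj f a b x) = Q x := by
      have := D.hinv _ (D.closure_le hf hg) x
      rw [h2, D.Q_add hf, FormData.Q_smul hf, D.hQb, D.hQa, hf.bilinear.smul_right, hba,
        mul_zero, zero_add, zero_add, mul_one] at this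
      exact this
    rw [h3] at h1
    exact hsy _ _ h1
  obtain ⟨v₁, hv₁a, hv₁b, hv₁⟩ := hc.surjective hf D.hab h4 1
  have hv1b : f v₁ b = 0 := hv₁b
  -- all `b + λ a` are congruent
  have key2 : ∀ k : F, k ≠ 0 → R hf Q v₁ * R hf Q (b + (k * k) • a) ∈ M := by
    intro k hk
    have hQk : Q (k • v₁) = k * k := by rw [FormData.Q_smul hf, hv₁, mul_one]
    have hne : Q (k • v₁) ≠ 0 := by rw [hQk]; exact mul_ne_zero hk hk
    have hkb : f (k • v₁) b = 0 := by rw [hf.bilinear.smul_left, hv1b, mul_zero]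
    have hs := step hne D.hb hkb
    rw [R_smul hf hk] at hs
    have hQ' : Q (k • v₁ + b) = k * k := by rw [D.Q_add hf, hQk, D.hQb, hkb, add_zero, add_zero]
    have := key1 (k • v₁ + b)
      (by rw [hf.bilinear.add_left, hf.bilinear.smul_left, hv₁a, hba, mul_zero, zero_add])
      (by rw [hQ']; exact mul_ne_zero hk hk)
    rw [hQ'] at this
    exact htr _ _ _ hs this
  have main : ∀ x, Q x ≠ 0 → R hf Q x * R hf Q v₁ ∈ M := by
    have h1 : ∀ x, f x a = 1 → Q x ≠ 0 → R hf Q x * R hf Q v₁ ∈ M := by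
      intro x hxa hx
      obtain ⟨k, hk⟩ := FiniteField.isSquare_of_char_two ((ringChar.eq_iff).2 inferInstance) (Q x)
      have hk0 : k ≠ 0 := fun h => hx (by rw [hk, h, mul_zero])
      have := key1 x hxa hx
      rw [hk] at this
      exact htr _ _ _ this (hsy _ _ (key2 k hk0))
    intro x hx
    by_cases hxa : f x a = 0
    · set w := proj f a b x with hw
      have hwa := proj_perp_left hf D.hab x
      have hwb := proj_perp_right hf D.hab x
      have hxw : w = x + f x b • a := by rw [hw, proj, hxa, zero_smul, add_zero]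
      have hwne : w ∉ Submodule.span F {a, b} := by
        intro hmem
        obtain ⟨α, β, hαβ⟩ := Submodule.mem_span_pair.1 hmem
        have e1 : f (α • a + β • b) a = 0 := by rw [hαβ]; exact hwa
        have e2 : f (α • a + β • b) b = 0 := by rw [hαβ]; exact hwb
        rw [hf.bilinear.add_left, hf.bilinear.smul_left, hf.bilinear.smul_left, hf.alternating,
          hba, mul_zero, zero_add, mul_one] at e1
        rw [hf.bilinear.add_left, hf.bilinear.smul_left, hf.bilinear.smul_left, hf.alternating,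
          D.hab, mul_zero, add_zero, mul_one] at e2
        rw [e1, e2, zero_smul, zero_smul, add_zero] at hαβ
        apply hx
        rw [← hc.ext x (f x b) hxa, ← hxw, ← hαβ, QuadraticMap.map_zero]
      obtain ⟨v, hv, hvw⟩ := exists_dual_one hf hwne (f x b)
      have hva : f v a = 0 := hv a (Submodule.subset_span (by simp))
      set p := ap (E hf a v (Q v)) b with hpdef
      have hp : InP L a p := D.hb.map (hc.mem v hva)
      have hpf : ∀ y, f p y = f b y + f v y + (f b v + Q v) * f a y := fun y => by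
        rw [hpdef, ap_E hf hva, hba, one_smul, mul_one, hf.bilinear.add_left,
          hf.bilinear.add_left, hf.bilinear.smul_left]
      have hxp : f x p = 0 := by
        rw [symm hf x p, hpf, symm hf a x, hxa, mul_zero, add_zero, symm hf b x]
        have : f v w = f v x := by
          rw [hxw, hf.bilinear.add_right, hf.bilinear.smul_right, hva, mul_zero, add_zero]
        rw [← this, hvw, CharTwo.add_self_eq_zero]
      have hpa : f (x + p) a = 1 := by
        rw [hf.bilinear.add_left, hxa, hpf, hba, hva, hf.alternating]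
        ring
      have hQxp : Q (x + p) = Q x := by
        rw [D.Q_add hf, (D.compl p hp).1, hxp, add_zero, add_zero]
      exact htr _ _ _ (step hx hp hxp) (h1 _ hpa (by rw [hQxp]; exact hx))
    · have := h1 ((f x a)⁻¹ • x)
        (by rw [hf.bilinear.smul_left, inv_mul_cancel₀ hxa])
        (by rw [FormData.Q_smul hf]
            exact mul_ne_zero (mul_ne_zero (inv_ne_zero hxa) (inv_ne_zero hxa)) hx)
      rwa [R_smul hf (inv_ne_zero hxa)] at this
  exact htr _ _ _ (main u hu) (hsy _ _ (main u' hu'))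

lemma FormData.nondeg (D : FormData hf L a b Q) :
    (QuadraticMap.polarBilin Q).Nondegenerate := by
  refine (LinearMap.IsRefl.nondegenerate_iff_separatingLeft (fun x y h => by
    simp only [QuadraticMap.polarBilin_apply_apply] at h ⊢
    rwa [QuadraticMap.polar_comm])).2 fun x hx => ?_
  by_contra h0
  obtain ⟨y, hy⟩ := (hf.nondegenerate x h0).2
  exact hy (by rw [← D.hpolar, ← QuadraticMap.polarBilin_apply_apply]; exact hx y)

/-- The final alternative. -/
theorem FormData.classify [Finite F] (D : FormData hf L a b Q) (ha : a ≠ 0)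
    (h4 : 4 ≤ Fintype.card ι) (hsp : Splits f L a Q) (hgen : Forms.reflClosure Q = ⊤) :
    L = Cfsg.isometryGroup F (⇑Q) ∨
      ∀ g : GL ι F, g ∈ L ↔ g ∈ Cfsg.isometryGroup F (⇑Q) ∧
        Even ((g : Matrix ι ι F) - 1).rank := by
  classical
  set M := Subgroup.closure (gens hf L a Q) with hM
  obtain ⟨u₀, -, -, hu₀⟩ := (D.compl a (InP.refl L a)).2.surjective hf D.hab h4 1
  have hu₀' : Q u₀ ≠ 0 := by rw [hu₀]; exact one_ne_zero
  -- every isometry lies in `M` or in `R M`
  have cover : ∀ g : Cfsg.isometryGroup F (⇑Q),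
      (g : GL ι F) ∈ M ∨ R hf Q u₀ * (g : GL ι F) ∈ M := by
    intro g
    have hg : g ∈ Forms.reflClosure Q := by rw [hgen]; trivial
    have stepx : ∀ (v : ι → F) (hv : Q v ≠ 0) (y : Cfsg.isometryGroup F (⇑Q)),
        ((y : GL ι F) ∈ M ∨ R hf Q u₀ * (y : GL ι F) ∈ M) →
        ((OrthGen.refl Q hv * y : Cfsg.isometryGroup F (⇑Q)) : GL ι F) ∈ M ∨
          R hf Q u₀ * ((OrthGen.refl Q hv * y : Cfsg.isometryGroup F (⇑Q)) : GL ι F) ∈ M := by
      intro v hv y ih
      rw [Subgroup.coe_mul, D.coe_refl hf hv]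
      rcases ih with h | h
      · right
        rw [← mul_assoc]
        exact mul_mem (D.R_mul_R hf ha h4 hsp hu₀' hv) h
      · left
        have := mul_mem (D.R_mul_R hf ha h4 hsp hv hu₀') h
        rwa [show R hf Q v * R hf Q u₀ * (R hf Q u₀ * (y : GL ι F))
          = R hf Q v * (R hf Q u₀ * R hf Q u₀) * (y : GL ι F) by group, R_sq, mul_one] at this
    induction hg using Subgroup.closure_induction_left with
    | one => left; exact one_mem M
    | mul_left x hx y hy ih =>
      obtain ⟨v, hv, rfl⟩ := hx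
      exact stepx v hv y ih
    | inv_mul_cancel x hx y hy ih =>
      obtain ⟨v, hv, rfl⟩ := hx
      rw [OrthGen.refl_inv]
      exact stepx v hv y ih
  have hsign : ∀ g ∈ M, ∀ hg : g ∈ Cfsg.isometryGroup F (⇑Q),
      Forms.dicksonSign (⟨g, hg⟩ : Cfsg.isometryGroup F (⇑Q)) = 1 := by
    intro g hgM
    have stepg : ∀ (x y : GL ι F), (∃ v w, ∃ (hv : Q v ≠ 0) (hw : Q w ≠ 0),
        x = R hf Q v * R hf Q w) →
        (∀ hg : y ∈ Cfsg.isometryGroup F (⇑Q),
          Forms.dicksonSign (⟨y, hg⟩ : Cfsg.isometryGroup F (⇑Q)) = 1) →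
        ∀ hg : x * y ∈ Cfsg.isometryGroup F (⇑Q),
          Forms.dicksonSign (⟨x * y, hg⟩ : Cfsg.isometryGroup F (⇑Q)) = 1 := by
      rintro x y ⟨v, w, hv, hw, rfl⟩ ih hg
      have hy : y ∈ Cfsg.isometryGroup F (⇑Q) := by
        have := mul_mem (mul_mem (D.R_mem hf hw) (D.R_mem hf hv)) hg
        rwa [show R hf Q w * R hf Q v * (R hf Q v * R hf Q w * y)
          = R hf Q w * (R hf Q v * R hf Q v) * R hf Q w * y by group, R_sq, mul_one, R_sq,
          one_mul] at this
      have heq : (⟨R hf Q v * R hf Q w * y, hg⟩ : Cfsg.isometryGroup F (⇑Q))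
          = OrthGen.refl Q hv * (OrthGen.refl Q hw * ⟨y, hy⟩) := by
        apply Subtype.ext
        simp only [Subgroup.coe_mul, D.coe_refl hf hv, D.coe_refl hf hw, mul_assoc]
      rw [heq, Forms.dicksonSign_refl_mul (D.nondeg hf) hv,
        Forms.dicksonSign_refl_mul (D.nondeg hf) hw, neg_neg, ih hy]
    induction hgM using Subgroup.closure_induction_left with
    | one => intro hg; exact Forms.dicksonSign_one
    | mul_left x hx y hy ih =>
      obtain ⟨p, v, hp, hv, hQv, rfl⟩ := hx
      obtain ⟨h1, h2⟩ := D.E_eq_R_mul hf hp hv hQv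
      exact stepg _ y ⟨v, _, hQv, h2.symm ▸ hQv, h1⟩ ih
    | inv_mul_cancel x hx y hy ih =>
      obtain ⟨p, v, hp, hv, hQv, rfl⟩ := hx
      obtain ⟨h1, h2⟩ := D.E_eq_R_mul hf hp hv hQv
      exact stepg _ y ⟨_, v, h2.symm ▸ hQv, hQv, by
        rw [h1, _root_.mul_inv_rev, R_inv, R_inv]⟩ ih
  have hrank : ∀ (g : GL ι F) (hg : g ∈ Cfsg.isometryGroup F (⇑Q)),
      (Even ((g : Matrix ι ι F) - 1).rank ↔
        Forms.dicksonSign (⟨g, hg⟩ : Cfsg.isometryGroup F (⇑Q)) = 1) := by
    intro g hg
    have h : Forms.subOne (⟨g, hg⟩ : Cfsg.isometryGroup F (⇑Q))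
        = ((g : Matrix ι ι F) - 1).mulVecLin := by
      refine LinearMap.ext fun v => ?_
      rw [Forms.subOne, LinearMap.sub_apply, Matrix.toLin'_apply, LinearMap.id_apply,
        Matrix.mulVecLin_apply, Matrix.sub_mulVec, Matrix.one_mulVec]
    rw [Forms.dicksonSign, h, Matrix.rank]
    exact ⟨fun h1 => h1.neg_one_pow, fun h1 => (neg_one_pow_eq_one_iff_even (by decide)).1 h1⟩
  have hLO : ∀ g ∈ L, g ∈ Cfsg.isometryGroup F (⇑Q) := fun g hg => fun u _ => D.hinv g hg u
  have hML : M ≤ L := D.closure_le hf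
  by_cases hR : R hf Q u₀ ∈ L
  · left
    refine le_antisymm (fun g hg => hLO g hg) fun g hg => ?_
    rcases cover ⟨g, hg⟩ with h | h
    · exact hML h
    · have := mul_mem hR (hML h)
      rwa [← mul_assoc, R_sq, one_mul] at this
  · right
    intro g
    constructor
    · intro hg
      refine ⟨hLO g hg, (hrank g (hLO g hg)).2 (hsign g ?_ _)⟩
      rcases cover ⟨g, hLO g hg⟩ with h | h
      · exact h
      · exfalso
        apply hR
        have := mul_mem (hML h) (inv_mem hg)
        rwa [mul_inv_cancel_right] at this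
    · rintro ⟨hgO, hev⟩
      rcases cover ⟨g, hgO⟩ with h | h
      · exact hML h
      · exfalso
        have h1 := hsign _ h (mul_mem (D.R_mem hf hu₀') hgO)
        have h2 : (⟨R hf Q u₀ * g, mul_mem (D.R_mem hf hu₀') hgO⟩ : Cfsg.isometryGroup F (⇑Q))
            = OrthGen.refl Q hu₀' * ⟨g, hgO⟩ := by
          apply Subtype.ext
          simp only [Subgroup.coe_mul, D.coe_refl hf hu₀']
        rw [h2, Forms.dicksonSign_refl_mul (D.nondeg hf) hu₀', (hrank g hgO).1 hev] at h1
        exact absurd h1 (by decide)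

end CfsgLib.SpOverX
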