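import Cfsg.Agent.Lib.Geometric.Symp

/-!
Symplectic spaces in characteristic two: the elements `z ↦ z + f(z,a) v + (f(z,v) + c f(z,a)) a`
(for `v ⊥ a`) of the unipotent radical of the stabiliser of `a`.
-/

set_option autoImplicit false
set_option linter.unusedSectionVars false

namespace CfsgLib.SpOverX

open Matrix CfsgLib.Geometric CfsgLib.Geometric.Symp

variable {ι : Type} [Fintype ι] [DecidableEq ι] {F : Type*} [Field F] [CharP F 2]
  {f : (ι → F) → (ι → F) → F} (hf : Cfsg.Geo.IsSymplecticForm f)
include hf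

lemma symm (u v : ι → F) : f u v = f v u := by rw [hf.skew, CharTwo.neg_eq]

omit hf in
lemma vec_add_self (v : ι → F) : v + v = 0 := funext fun i => CharTwo.add_self_eq_zero (v i)

omit hf in
lemma vec_add_add (u v : ι → F) : u + v + v = u := by rw [add_assoc, vec_add_self, add_zero]

omit hf in
/-- The element of the unipotent radical at `a` with vector `v` and parameter `c`. -/
def E (hf : Cfsg.Geo.IsSymplecticForm f) (a v : ι → F) (c : F) : GL ι F :=
  T hf (a + v) 1 * T hf v 1 * T hf a (c + 1)

lemma E_mem_isom (a v : ι → F) (c : F) : E hf a v c ∈ isom f :=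
  mul_mem (mul_mem (T_mem_isom hf _ _) (T_mem_isom hf _ _)) (T_mem_isom hf _ _)

lemma ap_E {a v : ι → F} (hva : f v a = 0) (c : F) (z : ι → F) :
    ap (E hf a v c) z = z + f z a • v + (f z v + c * f z a) • a := by
  simp only [E, ap_mul, ap_T hf, hf.bilinear.add_left, hf.bilinear.add_right, hf.bilinear.smul_left,
    hf.alternating, hva, symm hf a v]
  ext i
  simp only [Pi.add_apply, Pi.smul_apply, smul_eq_mul]
  linear_combination (f z v * v i + f z a * a i) * CharTwo.two_eq_zero (R := F)

lemma E_conj {g : GL ι F} (hg : g ∈ isom f) (a v : ι → F) (c : F) :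
    g * E hf a v c * g⁻¹ = E hf (ap g a) (ap g v) c := by
  rw [E, E, ← ap_add, ← conj_T hf hg, ← conj_T hf hg, ← conj_T hf hg]
  group

lemma E_mul {a v w : ι → F} (hv : f v a = 0) (hw : f w a = 0) (c d : F) :
    E hf a v c * E hf a w d = E hf a (v + w) (c + d + f v w) := by
  refine gl_ext fun z => ?_
  rw [ap_mul, ap_E hf hv, ap_E hf hw, ap_E hf (by rw [hf.bilinear.add_left, hv, hw, add_zero])]
  simp only [hf.bilinear.add_left, hf.bilinear.add_right, hf.bilinear.smul_left, hw,
    hf.alternating, symm hf a v, symm hf w v, hv]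
  ext i
  simp only [Pi.add_apply, Pi.smul_apply, smul_eq_mul]
  ring

lemma E_add_smul {a v : ι → F} (hv : f v a = 0) (k c : F) :
    E hf a (v + k • a) c = E hf a v c := by
  refine gl_ext fun z => ?_
  rw [ap_E hf hv, ap_E hf (by rw [hf.bilinear.add_left, hf.bilinear.smul_left, hv, hf.alternating,
    mul_zero, add_zero])]
  simp only [hf.bilinear.add_right, hf.bilinear.smul_right]
  ext i
  simp only [Pi.add_apply, Pi.smul_apply, smul_eq_mul]
  linear_combination (k * f z a * a i) * CharTwo.two_eq_zero (R := F)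

lemma E_smul {a v : ι → F} (hv : f v a = 0) (μ c : F) :
    E hf (μ • a) v c = E hf a (μ • v) (μ * μ * c) := by
  refine gl_ext fun z => ?_
  rw [ap_E hf (by rw [hf.bilinear.smul_right, hv, mul_zero]),
    ap_E hf (by rw [hf.bilinear.smul_left, hv, mul_zero])]
  simp only [hf.bilinear.smul_right]
  ext i
  simp only [Pi.add_apply, Pi.smul_apply, smul_eq_mul]
  ring

lemma E_zero (a : ι → F) (c : F) : E hf a 0 c = T hf a c := by
  refine gl_ext fun z => ?_
  rw [ap_E hf (zero_left hf a), ap_T hf, zero_right hf, smul_zero, add_zero, zero_add]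

/-- Two elements with the same vector differ by a transvection. -/
lemma E_mul_same {a v : ι → F} (hv : f v a = 0) (c d : F) :
    E hf a v c * E hf a v d = T hf a (c + d) := by
  rw [E_mul hf hv hv, hf.alternating, add_zero, vec_add_self, E_zero]

lemma ap_E_fix {a v z : ι → F} (hva : f v a = 0) (c : F) (ha : f z a = 0) (hv : f z v = 0) :
    ap (E hf a v c) z = z := by
  rw [ap_E hf hva, ha, hv]
  simp

lemma ap_E_self {a v : ι → F} (hva : f v a = 0) (c : F) : ap (E hf a v c) a = a :=
  ap_E_fix hf hva c (hf.alternating a) (by rw [symm hf]; exact hva)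

end CfsgLib.SpOverX
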