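import Cfsg.Agent.Lib.SpOverX.Zero
import Cfsg.Agent.Lib.SpOverX.Hyperbolic
import Cfsg.Agent.Lib.Derangements.PermIndex

/-!
Dimension four over two elements without the vanishing property: the group has index two or six in
the symmetric group of degree six.
-/

set_option autoImplicit false
set_option linter.unusedSectionVars false

namespace CfsgLib.SpOverX

open Matrix CfsgLib.Geometric CfsgLib.Geometric.Symp

variable {ι : Type} [Fintype ι] [DecidableEq ι] {F : Type*} [Field F] [CharP F 2]
  {f : (ι → F) → (ι → F) → F} (hf : Cfsg.Geo.IsSymplecticForm f)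
  {L : Subgroup (GL ι F)} {a : ι → F} {c : (ι → F) → F}

include hf

/-- A base point with a non-zero value at an orthogonal orbit point has a transitive group with a
point stabiliser of order at least eight. -/
lemma card_ge [Finite F] (h4 : Fintype.card ι = 4) (h2 : Nat.card F = 2) (hL : L ≤ isom f)
    (hirr : ∀ W : Submodule F (ι → F), (∀ g ∈ L, ∀ w ∈ W, ap g w ∈ W) → W = ⊥ ∨ W = ⊤)
    {x : ι → F} {cx : (ι → F) → F} (hx0 : x ≠ 0) (hcx : IsCompl hf L x cx)
    (hA : ∀ s, T hf x s ∈ L → s = 0) {p : ι → F} (hp : InP L x p) (hpx : f p x = 0)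
    (hn : p ∉ Submodule.span F {x}) (hcp : cx p = 1) : 120 ≤ Nat.card L := by
  classical
  haveI := Fintype.ofFinite F
  have hval := two_values h2
  obtain ⟨b, hb, hxb⟩ := exists_partner hf hx0 hirr
  have hbx : f b x = 1 := by rw [symm hf]; exact hxb
  obtain ⟨cb, hcb⟩ := hcx.exists_of_inP hf hL hb
  set p' := p + f p b • x with hp'def
  have hp'P : InP L x p' := hcx.line hf hp hpx hn _
  have hp'x : f p' x = 0 := by
    rw [hp'def, hf.bilinear.add_left, hf.bilinear.smul_left, hpx, hf.alternating, mul_zero,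
      add_zero]
  have hp'b : f p' b = 0 := by
    rw [hp'def, hf.bilinear.add_left, hf.bilinear.smul_left, hxb, mul_one, CharTwo.add_self_eq_zero]
  have hcp' : cx p' = 1 := by rw [hp'def, hcx.ext p _ hpx, hcp]
  have hxp' : f x p' = 0 := by rw [symm hf]; exact hp'x
  have hp'0 : p' ≠ 0 := hp'P.ne_zero hx0
  have hnp : p' ∉ Submodule.span F {x} := notMem_span_of_perp hf hxb hp'b hp'0
  have hp'n2 : p' ∉ Submodule.span F {x, b} := by
    intro hmem
    obtain ⟨α, β, h⟩ := Submodule.mem_span_pair.1 hmem
    have e1 : f (α • x + β • b) x = 0 := by rw [h, hp'x]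
    have e2 : f (α • x + β • b) b = 0 := by rw [h, hp'b]
    rw [hf.bilinear.add_left, hf.bilinear.smul_left, hf.bilinear.smul_left, hf.alternating,
      hbx, mul_zero, zero_add, mul_one] at e1
    rw [hf.bilinear.add_left, hf.bilinear.smul_left, hf.bilinear.smul_left, hf.alternating,
      hxb, mul_zero, add_zero, mul_one] at e2
    rw [e1, e2, zero_smul, zero_smul, add_zero] at h
    exact hp'0 h.symm
  -- `b + x` is an orbit point
  have hbp : InP L x (b + p' + x) := by
    have := hb.map (hcx.mem p' hp'x)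
    rwa [ap_E hf hp'x, hbx, one_smul, symm hf b p', hp'b, hcp', one_mul, zero_add, one_smul] at this
  have hbx' : InP L x (b + x) := by
    obtain ⟨cp, hcp₂⟩ := hcx.exists_of_inP hf hL hp'P
    have hq : f (b + p' + x) p' = 0 := by
      rw [hf.bilinear.add_left, hf.bilinear.add_left, symm hf b p', hp'b, hf.alternating, hxp']
      simp
    have hn3 : b + p' + x ∉ Submodule.span F {p'} := by
      intro hmem
      obtain ⟨k, hk⟩ := Submodule.mem_span_singleton.1 hmem
      have := congrArg (fun w => f w x) hk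
      simp only [hf.bilinear.smul_left, hf.bilinear.add_left, hp'x, hbx, hf.alternating, mul_zero,
        add_zero] at this
      exact zero_ne_one this
    have := hcp₂.line hf hbp hq hn3 1
    rwa [one_smul, show b + p' + x + p' = b + x by
      rw [add_right_comm b p' x, vec_add_add]] at this
  -- every vector not orthogonal to `x` is an orbit point
  have full : ∀ z, f z x = 1 → InP L x z := by
    intro z hz
    have hE := hcx.mem _ (proj_perp_left hf hxb z)
    have h1 := hcx.ap_norm hf hxb hz
    have h3 : InP L x (ap (E hf x (proj f x b z) (cx (proj f x b z))) z) := by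
      rw [h1]
      rcases hval (f z b + cx (proj f x b z)) with h | h <;> rw [h]
      · rwa [zero_smul, add_zero]
      · rwa [one_smul]
    have := h3.map (inv_mem hE)
    rwa [ap_inv_ap] at this
  have all : ∀ z, z ≠ 0 → ∃ g ∈ L, ap g x = z := by
    intro z hz
    suffices InP L x z by
      obtain ⟨g, hg, μ, hμ, rfl⟩ := this
      exact ⟨g, hg, by rw [(hval μ).resolve_left hμ, one_smul]⟩
    rcases hval (f z x) with hzx | hzx
    · obtain ⟨u, hux, huz⟩ : ∃ u, f u x = 1 ∧ f u z = 1 := by
        obtain ⟨w, hw⟩ := (hf.nondegenerate z hz).1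
        have hw1 : f w z = 1 := (hval _).resolve_left hw
        rcases hval (f w x) with hwx | hwx
        · rcases hval (f b z) with hbz | hbz
          · exact ⟨w + b, by rw [hf.bilinear.add_left, hwx, hbx, zero_add],
              by rw [hf.bilinear.add_left, hw1, hbz, add_zero]⟩
          · exact ⟨b, hbx, hbz⟩
        · exact ⟨w, hwx, hw1⟩
      obtain ⟨g, hg, μ, hμ, hu⟩ := full u hux
      rw [(hval μ).resolve_left hμ, one_smul] at hu
      have hgI := mem_isom_iff.1 (hL (inv_mem hg))
      have : f (ap g⁻¹ z) x = 1 := by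
        have := hgI z u
        rw [hu, ap_inv_ap, symm hf z, ← hu, huz] at this
        exact this
      have := (full _ this).map hg
      rwa [ap_ap_inv] at this
    · exact full z hzx
  letI : MulAction L (ι → F) :=
    { smul := fun g z => ap (g : GL ι F) z
      one_smul := fun z => ap_one z
      mul_smul := fun g g' z => ap_mul (g : GL ι F) (g' : GL ι F) z }
  have horb : MulAction.orbit L x = ({0}ᶜ : Set (ι → F)) := by
    ext z
    constructor
    · rintro ⟨g, rfl⟩
      exact ap_ne_zero _ hx0
    · intro hz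
      obtain ⟨g, hg, hgz⟩ := all z hz
      exact ⟨⟨g, hg⟩, hgz⟩
  have hcard : Nat.card (MulAction.orbit L x) = 15 := by
    rw [horb, Nat.card_coe_set_eq, Set.ncard_compl, Set.ncard_singleton, Nat.card_fun, h2,
      Nat.card_eq_fintype_card, h4]
    rfl
  set S := MulAction.stabilizer L x with hS
  obtain ⟨e, he, hep⟩ := exists_dual_one hf hp'n2 1
  have hex : f e x = 0 := he x (Submodule.subset_span (by simp))
  have heb : f e b = 0 := he b (Submodule.subset_span (by simp))
  let K : Subgroup L :=
    { carrier := {g | ∃ v, f v x = 0 ∧ (g : GL ι F) = E hf x v (cx v)}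
      mul_mem' := by
        rintro g g' ⟨v, hv, hg⟩ ⟨v', hv', hg'⟩
        refine ⟨v + v', by rw [hf.bilinear.add_left, hv, hv', add_zero], ?_⟩
        rw [Subgroup.coe_mul, hg, hg', E_mul hf hv hv', hcx.add v v' hv hv']
      one_mem' := ⟨0, zero_left hf x, by rw [hcx.zero hf, E_zero, T_zero_right]; rfl⟩
      inv_mem' := by
        rintro g ⟨v, hv, hg⟩
        refine ⟨v, hv, ?_⟩
        rw [Subgroup.coe_inv, hg]
        apply inv_eq_of_mul_eq_one_left
        rw [E_mul_same hf hv, CharTwo.add_self_eq_zero, T_zero_right] }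
  have hKS : K ≤ S := by
    rintro g ⟨v, hv, hg⟩
    rw [hS, MulAction.mem_stabilizer_iff]
    show ap (g : GL ι F) x = x
    rw [hg, ap_E_self hf hv]
  have hK4 : 4 ≤ Nat.card K := by
    let vv : F × F → (ι → F) := fun q => q.1 • p' + q.2 • e
    have hvv : ∀ q, f (vv q) x = 0 := fun q => by
      simp only [vv, hf.bilinear.add_left, hf.bilinear.smul_left, hp'x, hex, mul_zero, add_zero]
    let φ : F × F → K := fun q =>
      ⟨⟨E hf x (vv q) (cx (vv q)), hcx.mem _ (hvv q)⟩, vv q, hvv q, rfl⟩
    have hφ : Function.Injective φ := by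
      intro q q' hq
      have h1 := congrArg (fun k : K => ap ((k : L) : GL ι F) b) hq
      simp only [φ, ap_E hf (hvv _), hbx, one_smul, mul_one] at h1
      have k1 := congrArg (fun w => f w e) h1
      have k2 := congrArg (fun w => f w p') h1
      simp only [vv, hf.bilinear.add_left, hf.bilinear.smul_left, symm hf p' e, hep,
        hf.alternating, symm hf x e, hex, symm hf b e, heb, hxp', symm hf b p', hp'b, mul_one,
        mul_zero, add_zero, zero_add] at k1 k2
      exact Prod.ext k1 k2
    have := Nat.card_le_card_of_injective φ hφ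
    rwa [Nat.card_prod, h2] at this
  obtain ⟨cp, hcp₂⟩ := hcx.exists_of_inP hf hL hp'P
  have hx_p : f x p' = 0 := hxp'
  have hxn : x ∉ Submodule.span F {p'} := by
    intro hmem
    obtain ⟨k, hk⟩ := Submodule.mem_span_singleton.1 hmem
    have := congrArg (fun w => f w b) hk
    simp only [hf.bilinear.smul_left, hp'b, mul_zero, hxb] at this
    exact zero_ne_one this
  have hcpx : cp x = 1 := by
    have h1 := hcx.mem p' hp'x
    rw [hcp', ← one_smul F p'] at h1
    have := noT_of_inP hf hL hA hp'P _
      (hcp₂.pm_line hf hL hx_p hxn h1 one_ne_zero 1)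
    rw [one_smul, one_mul, div_one] at this
    exact CharTwo.add_eq_zero.1 this
  have hy : E hf p' x 1 ∈ L := by
    have := hcp₂.mem x hx_p
    rwa [hcpx] at this
  have hne : K ≠ S := by
    intro heq
    have hyS : (⟨_, hy⟩ : L) ∈ S := by
      rw [hS, MulAction.mem_stabilizer_iff]
      show ap (E hf p' x 1) x = x
      exact ap_E_fix hf hx_p 1 hxp' (hf.alternating x)
    rw [← heq] at hyS
    obtain ⟨v, hv, hg⟩ := hyS
    have h1 := congrArg (fun g => f (ap g e) e) hg
    simp only [ap_E hf hx_p, ap_E hf hv, hf.bilinear.add_left, hf.bilinear.smul_left,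
      hf.alternating, hex, hep, symm hf x e, symm hf p' e, mul_zero, zero_mul, add_zero, zero_add,
      mul_one, one_mul] at h1
    exact one_ne_zero h1
  have hlt : Nat.card K < Nat.card S := by
    rcases lt_or_eq_of_le (Subgroup.card_le_of_le hKS) with h | h
    · exact h
    · exact absurd (Subgroup.eq_of_le_of_card_ge hKS h.ge) hne
  have hdvd := Subgroup.card_dvd_of_le hKS
  have h8 : 8 ≤ Nat.card S := by
    obtain ⟨k, hk⟩ := hdvd
    rcases k with _ | _ | k
    · omega
    · omega
    · calc 8 = 4 * 2 := rfl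
        _ ≤ Nat.card K * (k + 1 + 1) := Nat.mul_le_mul hK4 (by omega)
        _ = Nat.card S := hk.symm
  have := Nat.card_congr (MulAction.orbitProdStabilizerEquivGroup L x)
  erw [Nat.card_prod, hcard] at this
  calc 120 = 15 * 8 := rfl
    _ ≤ 15 * Nat.card S := Nat.mul_le_mul_left _ h8
    _ = Nat.card L := this

/-- The exceptional groups. -/
theorem small_cases [Finite F] (h4 : Fintype.card ι = 4) (h2 : Nat.card F = 2) (hL : L ≤ isom f)
    (ha : a ≠ 0) (h : IsCompl hf L a c)
    (hirr : ∀ W : Submodule F (ι → F), (∀ g ∈ L, ∀ w ∈ W, ap g w ∈ W) → W = ⊥ ∨ W = ⊤)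
    (hA : ∀ s, T hf a s ∈ L → s = 0) (hZ : ¬ ZProp hf L a)
    (e : isom f ≃* Equiv.Perm (Fin 6)) :
    Nonempty (L ≃* alternatingGroup (Fin 6)) ∨ Nonempty (L ≃* Equiv.Perm (Fin 5)) := by
  classical
  unfold ZProp at hZ
  push Not at hZ
  obtain ⟨x, hx, cx, hcx, p, hp, hpx, hn, m, hm⟩ := hZ
  have hval := two_values h2
  have hxA := noT_of_inP hf hL hA hx
  have hx0 := hx.ne_zero ha
  have hm0 : m ≠ 0 := fun h0 => hm (by rw [h0, zero_smul, hcx.zero hf])
  rw [(hval m).resolve_left hm0, one_smul] at hm
  have hbig := card_ge hf h4 h2 hL hirr hx0 hcx hxA (hx.symm.trans hp) hpx hn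
    ((hval _).resolve_left hm)
  set H : Subgroup (Equiv.Perm (Fin 6)) := (L.subgroupOf (isom f)).map e.toMonoidHom with hH
  have eH : L ≃* H :=
    (Subgroup.subgroupOfEquivOfLe hL).symm.trans (e.subgroupMap (L.subgroupOf (isom f)))
  have hne : H ≠ ⊤ := by
    intro htop
    have h1 : (⊤ : Subgroup (isom f)) ≤ L.subgroupOf (isom f) := by
      intro g _
      have : e g ∈ H := by rw [htop]; trivial
      obtain ⟨g', hg', hgg⟩ := this
      rwa [← e.injective hgg]
    have h3 := h1 (Subgroup.mem_top ⟨T hf a 1, T_mem_isom hf a 1⟩)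
    exact one_ne_zero (hA 1 (Subgroup.mem_subgroupOf.1 h3))
  by_cases hAlt : H = alternatingGroup (Fin 6)
  · exact Or.inl ⟨eH.trans (MulEquiv.subgroupCongr hAlt)⟩
  right
  have h6 := CfsgLib.Derangements.card_le_index (by simp) H hne hAlt
  rw [Fintype.card_fin] at h6
  have hcardH : Nat.card H * H.index = 720 := by
    rw [Subgroup.card_mul_index, Nat.card_perm, Nat.card_fin]
    rfl
  have hge : 120 ≤ Nat.card H := by rw [← Nat.card_congr eH.toEquiv]; exact hbig
  have hidx : H.index = 6 := by
    by_contra hne6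
    have : 120 * 7 ≤ Nat.card H * H.index := Nat.mul_le_mul hge (by omega)
    omega
  obtain ⟨θ, hθ, -, hcases⟩ := CfsgLib.Derangements.index_six_cases (Ω := Fin 6) (by simp)
  rcases hcases H hidx with ⟨i, hi⟩ | ⟨i, hi⟩
  · obtain ⟨k⟩ := CfsgLib.Derangements.stabilizer_mulEquiv i (m := 5) (by simp)
    exact ⟨(eH.trans (MulEquiv.subgroupCongr hi)).trans k⟩
  · obtain ⟨k⟩ := CfsgLib.Derangements.stabilizer_mulEquiv i (m := 5) (by simp)
    let θe := MulEquiv.ofBijective θ hθ
    refine ⟨((eH.trans (θe.subgroupMap H)).trans (MulEquiv.subgroupCongr ?_)).trans k⟩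
    rw [hi]
    exact Subgroup.map_comap_eq_self_of_surjective hθ.2 _

end CfsgLib.SpOverX
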