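import Cfsg.Agent.Lib.SpOverX.Compl

/-!
An irreducible subgroup containing a complement in the radical at `a` and one non-trivial
transvection at `a` is the whole isometry group.
-/

set_option autoImplicit false
set_option linter.unusedSectionVars false

namespace CfsgLib.SpOverX

open Matrix CfsgLib.Geometric CfsgLib.Geometric.Symp

variable {ι : Type} [Fintype ι] [DecidableEq ι] {F : Type*} [Field F] [CharP F 2]
  {f : (ι → F) → (ι → F) → F} (hf : Cfsg.Geo.IsSymplecticForm f)
  {L : Subgroup (GL ι F)} {a b : ι → F} {c : (ι → F) → F}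

/-- The component orthogonal to `a` and `b` (for `f a b = 1`). -/
def proj (f : (ι → F) → (ι → F) → F) (a b z : ι → F) : ι → F := z + f z b • a + f z a • b

include hf

lemma proj_perp_left (hab : f a b = 1) (z : ι → F) : f (proj f a b z) a = 0 := by
  rw [proj, hf.bilinear.add_left, hf.bilinear.add_left, hf.bilinear.smul_left,
    hf.bilinear.smul_left, hf.alternating, symm hf b a, hab, mul_zero, add_zero, mul_one,
    CharTwo.add_self_eq_zero]

lemma proj_perp_right (hab : f a b = 1) (z : ι → F) : f (proj f a b z) b = 0 := by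
  rw [proj, hf.bilinear.add_left, hf.bilinear.add_left, hf.bilinear.smul_left,
    hf.bilinear.smul_left, hf.alternating, hab, mul_zero, add_zero, mul_one,
    CharTwo.add_self_eq_zero]

/-- A vector outside a span of fewer vectors than the dimension. -/
lemma exists_notMem_span (s : Finset (ι → F)) (hs : s.card < Fintype.card ι) :
    ∃ x, x ∉ Submodule.span F (s : Set (ι → F)) := by
  by_contra hno
  push Not at hno
  have htop : Submodule.span F (s : Set (ι → F)) = ⊤ := Submodule.eq_top_iff'.2 hno
  have := finrank_span_finset_le_card (R := F) s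
  rw [Set.finrank, htop, finrank_top, Module.finrank_pi] at this
  omega

/-- A pair orthogonal to `a` and `b`. -/
lemma exists_orth_pair (hab : f a b = 1) (h4 : 4 ≤ Fintype.card ι) :
    ∃ d e, f d a = 0 ∧ f d b = 0 ∧ f e a = 0 ∧ f e b = 0 ∧ f d e = 1 := by
  classical
  obtain ⟨x, hx⟩ := exists_notMem_span hf {a, b}
    (lt_of_le_of_lt (Finset.card_le_two (a := a) (b := b)) (by omega))
  rw [Finset.coe_insert, Finset.coe_singleton] at hx
  have hp : proj f a b x ∉ Submodule.span F {a, b} := fun h => hx <| by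
    rw [proj] at h
    have ha : f x b • a ∈ Submodule.span F {a, b} :=
      Submodule.smul_mem _ _ (Submodule.subset_span (by simp))
    have hb : f x a • b ∈ Submodule.span F {a, b} :=
      Submodule.smul_mem _ _ (Submodule.subset_span (by simp))
    exact (Submodule.add_mem_iff_left _ ha).1 ((Submodule.add_mem_iff_left _ hb).1 h)
  obtain ⟨e, he, hed⟩ := exists_dual_one hf hp 1
  exact ⟨_, e, proj_perp_left hf hab x, proj_perp_right hf hab x,
    he a (Submodule.subset_span (by simp)), he b (Submodule.subset_span (by simp)),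
    by rw [symm hf]; exact hed⟩

/-- A complement function takes every value on the orthogonal of a hyperbolic pair. -/
lemma IsCompl.surjective [Finite F] (h : IsCompl hf L a c) (hab : f a b = 1)
    (h4 : 4 ≤ Fintype.card ι) (τ : F) : ∃ v, f v a = 0 ∧ f v b = 0 ∧ c v = τ := by
  haveI := Fintype.ofFinite F
  obtain ⟨d, e, hda, hdb, hea, heb, hde⟩ := exists_orth_pair hf hab h4
  have hs : ∀ k : F, f (k • d) a = 0 := fun k => by rw [hf.bilinear.smul_left, hda, mul_zero]
  have hse : ∀ k : F, f (k • e) a = 0 := fun k => by rw [hf.bilinear.smul_left, hea, mul_zero]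
  have hadd : ∀ x x' : F, c ((x + x') • d) = c (x • d) + c (x' • d) := fun x x' => by
    rw [add_smul, h.add _ _ (hs x) (hs x'), hf.bilinear.smul_left, hf.bilinear.smul_right,
      hf.alternating, mul_zero, mul_zero, add_zero]
  have hy : ∃ y : F, ∀ x : F, c (x • d) = x * y → x = 0 := by
    by_contra hno
    push Not at hno
    choose g hg hg0 using hno
    have hgi : Function.Injective fun y => (⟨g y, hg0 y⟩ : {x : F // x ≠ 0}) := by
      intro y y' hyy
      have hh : g y = g y' := congrArg Subtype.val hyy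
      have h1 : g y * y = g y * y' := by rw [← hg y, hh, ← hg y']
      exact mul_left_cancel₀ (hg0 y) h1
    have h1 := Nat.card_le_card_of_injective _ hgi
    have h2 : Nat.card {x : F // x ≠ 0} < Nat.card F :=
      Finite.card_subtype_lt (x := 0) (by simp)
    omega
  obtain ⟨y, hy⟩ := hy
  let φ : F → F := fun x => c (x • d) + x * y
  have hφ : Function.Injective φ := by
    intro x x' hxx
    have h0 : c ((x + x') • d) = (x + x') * y := by
      rw [hadd, add_mul, ← CharTwo.add_eq_zero]
      have : φ x + φ x' = 0 := by rw [hxx, CharTwo.add_self_eq_zero]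
      rw [← this]
      ring
    exact CharTwo.add_eq_zero.1 (hy _ h0)
  obtain ⟨x, hx⟩ := Finite.surjective_of_injective hφ (τ + c (y • e))
  refine ⟨x • d + y • e, by rw [hf.bilinear.add_left, hs, hse, add_zero], ?_, ?_⟩
  · rw [hf.bilinear.add_left, hf.bilinear.smul_left, hf.bilinear.smul_left, hdb, heb, mul_zero,
      mul_zero, add_zero]
  · rw [h.add _ _ (hs x) (hse y), hf.bilinear.smul_left, hf.bilinear.smul_right, hde, mul_one]
    have hx' : c (x • d) + x * y = τ + c (y • e) := hx
    linear_combination hx' + c (y • e) * CharTwo.two_eq_zero (R := F)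

/-- The normal form of a vector not orthogonal to `a`. -/
lemma IsCompl.ap_norm (h : IsCompl hf L a c) (hab : f a b = 1) {z : ι → F} (hz : f z a = 1) :
    ap (E hf a (proj f a b z) (c (proj f a b z))) z
      = b + (f z b + c (proj f a b z)) • a := by
  have hzp : f z (proj f a b z) = 0 := by
    rw [proj, hf.bilinear.add_right, hf.bilinear.add_right, hf.bilinear.smul_right,
      hf.bilinear.smul_right, hf.alternating]
    linear_combination (f z a * f z b) * CharTwo.two_eq_zero (R := F)
  rw [ap_E hf (proj_perp_left hf hab z), hzp, hz, one_smul, zero_add, mul_one]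
  ext i
  simp only [proj, hz, one_smul, Pi.add_apply, Pi.smul_apply, smul_eq_mul]
  linear_combination (z i) * CharTwo.two_eq_zero (R := F)

/-- A second orbit point on the line through `a` and `b` gives an orbit point orthogonal to both. -/
lemma IsCompl.exists_perp_point [Finite F] (h : IsCompl hf L a c) {cb : (ι → F) → F}
    (hb : IsCompl hf L b cb) (hab : f a b = 1) (h4 : 4 ≤ Fintype.card ι) {τ : F} (hτ : τ ≠ 0)
    (hP : InP L a (b + τ • a)) :
    ∃ d, InP L a d ∧ f d a = 0 ∧ f d b = 0 ∧ d ≠ 0 ∧ c d = τ := by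
  obtain ⟨d, hda, hdb, hcd⟩ := h.surjective hf hab h4 τ
  have hd0 : d ≠ 0 := fun h0 => hτ (by rw [← hcd, h0, h.zero hf])
  refine ⟨d, ?_, hda, hdb, hd0, hcd⟩
  have h1 := hP.map (h.mem d hda)
  have hza : f (b + τ • a) a = 1 := by
    rw [hf.bilinear.add_left, hf.bilinear.smul_left, hf.alternating, mul_zero, add_zero,
      symm hf b a, hab]
  rw [ap_E hf hda, hza, hcd, one_smul, hf.bilinear.add_left, hf.bilinear.smul_left,
    symm hf b d, hdb, symm hf a d, hda, mul_zero, zero_add, zero_add, mul_one] at h1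
  have h2 : InP L a (b + d) := by
    convert h1 using 1
    rw [add_right_comm b (τ • a) d, vec_add_add]
  have hq : f (b + d) b = 0 := by rw [hf.bilinear.add_left, hf.alternating, hdb, add_zero]
  have hn : b + d ∉ Submodule.span F {b} := by
    intro hmem
    obtain ⟨k, hk⟩ := Submodule.mem_span_singleton.1 hmem
    have h3 : f (k • b) a = f (b + d) a := by rw [hk]
    rw [hf.bilinear.smul_left, hf.bilinear.add_left, symm hf b a, hab, hda, add_zero,
      mul_one] at h3
    rw [h3, one_smul] at hk
    exact hd0 (add_eq_left.1 hk.symm)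
  have h4' := hb.line hf h2 hq hn 1
  rwa [one_smul, add_comm b d, vec_add_add] at h4'

omit hf in
lemma eq_zero_or_one {t σ : F} (ht : ∀ m : F, m ≠ 0 → m * m = t * σ) (x : F) : x = 0 ∨ x = 1 := by
  by_cases hx : x = 0
  · exact Or.inl hx
  · refine Or.inr ?_
    have h1 : x * x = 1 * 1 := (ht x hx).trans (ht 1 one_ne_zero).symm
    rcases mul_self_eq_mul_self_iff.1 h1 with h | h
    · exact h
    · rwa [CharTwo.neg_eq] at h

/-- One transvection at `a` yields all of them. -/
lemma IsCompl.all_transvections [Finite F] (h : IsCompl hf L a c) (hL : L ≤ isom f) (ha : a ≠ 0)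
    (hirr : ∀ W : Submodule F (ι → F), (∀ g ∈ L, ∀ w ∈ W, ap g w ∈ W) → W = ⊥ ∨ W = ⊤)
    (h4 : 4 ≤ Fintype.card ι) {σ : F} (hσ : σ ≠ 0) (hσL : T hf a σ ∈ L) (s : F) :
    T hf a s ∈ L := by
  obtain ⟨b, hbP, hab⟩ := exists_partner hf ha hirr
  obtain ⟨cb, hcb⟩ := h.exists_of_inP hf hL hbP
  have hba : f b a = 1 := by rw [symm hf]; exact hab
  have hP : InP L a (b + σ • a) := by
    have := hbP.map hσL
    rwa [ap_T hf, hba, mul_one] at this
  obtain ⟨d, hdP, hda, hdb, hd0, -⟩ := h.exists_perp_point hf hcb hab h4 hσ hP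
  have hnd : d ∉ Submodule.span F {a} := by
    intro hmem
    obtain ⟨k, rfl⟩ := Submodule.mem_span_singleton.1 hmem
    rw [hf.bilinear.smul_left, hab, mul_one] at hdb
    exact hd0 (by rw [hdb, zero_smul])
  have hna : a ∉ Submodule.span F {d} := by
    intro hmem
    obtain ⟨k, rfl⟩ := Submodule.mem_span_singleton.1 hmem
    rw [hf.bilinear.smul_left, hdb, mul_zero] at hab
    exact zero_ne_one hab
  have had : f a d = 0 := by rw [symm hf]; exact hda
  obtain ⟨cd, hcd⟩ := h.exists_of_inP hf hL hdP
  obtain ⟨t, ht, htL⟩ := T_mem_of_inP hf hL hdP hσL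
  have key : ∀ (η u : F), E hf d (η • a) u ∈ L → u ≠ 0 → ∀ m : F,
      T hf a (c (m • d) + m * m / u) ∈ L :=
    fun η u hy hu m => h.pm_line hf hL hda hnd hy hu m
  have ht0 : E hf d ((0 : F) • a) t ∈ L := by rwa [zero_smul, E_zero]
  by_cases hex : ∃ η u : F, E hf d (η • a) u ∈ L ∧ u ≠ 0 ∧ u ≠ t
  · obtain ⟨η, u, hy, hu0, hut⟩ := hex
    have hk : u⁻¹ + t⁻¹ ≠ 0 := fun h0 => hut (inv_injective (CharTwo.add_eq_zero.1 h0))
    obtain ⟨r, hr⟩ := FiniteField.isSquare_of_char_two
      ((ringChar.eq_iff).2 inferInstance) (s / (u⁻¹ + t⁻¹))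
    have := mul_mem (key η u hy hu0 r) (key 0 t ht0 (ht hσ) r)
    rw [T_mul] at this
    convert this using 2
    have hs' : s = r * r * (u⁻¹ + t⁻¹) := by rw [← hr, div_mul_cancel₀ _ hk]
    rw [hs']
    linear_combination -(c (r • d)) * CharTwo.two_eq_zero (R := F)
  · push Not at hex
    have hsq : ∀ m : F, m ≠ 0 → m * m = t * σ := by
      intro m hm
      have hma : f (m • a) d = 0 := by rw [hf.bilinear.smul_left, had, mul_zero]
      have h1 := hcd.pm_line hf hL had hna (η := 0) (by rwa [zero_smul, E_zero]) hσ m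
      have h2 : E hf d (0 • a) (cd (m • a) + m * m / σ) ∈ L := by rwa [zero_smul, E_zero]
      have hv2 : cd (m • a) = 0 ∨ cd (m • a) = t := by
        by_cases h0 : cd (m • a) = 0
        · exact Or.inl h0
        · exact Or.inr (hex m _ (hcd.mem _ hma) h0)
      have hv1 : cd (m • a) + m * m / σ = 0 ∨ cd (m • a) + m * m / σ = t := by
        by_cases h0 : cd (m • a) + m * m / σ = 0
        · exact Or.inl h0
        · exact Or.inr (hex 0 _ (by rw [zero_smul, E_zero]; exact h1) h0)
      have hne : m * m / σ ≠ 0 := div_ne_zero (mul_ne_zero hm hm) hσ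
      have : m * m / σ = t := by
        rcases hv2 with h2 | h2 <;> rcases hv1 with h3 | h3 <;> rw [h2] at h3
        · exact absurd (by simpa using h3) hne
        · simpa using h3
        · exact (CharTwo.add_eq_zero.1 h3).symm
        · exact absurd (add_eq_left.1 h3) hne
      rw [← this, div_mul_cancel₀ _ hσ]
    rcases eq_zero_or_one hsq s with rfl | rfl
    · rw [T_zero_right]; exact one_mem L
    · rwa [((eq_zero_or_one hsq σ).resolve_left hσ)] at hσL

/-- All vectors not orthogonal to a point with full transvection group are orbit points. -/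
lemma IsCompl.inP_of_nonperp (h : IsCompl hf L a c) (hab : f a b = 1) (hb : InP L a b)
    (hT : ∀ s, T hf a s ∈ L) {z : ι → F} (hz : f z a ≠ 0) : InP L a z := by
  set z' := (f z a)⁻¹ • z with hz'
  have h1 : f z' a = 1 := by rw [hz', hf.bilinear.smul_left, inv_mul_cancel₀ hz]
  have h2 : InP L a (b + (f z' b + c (proj f a b z')) • a) := by
    have := hb.map (hT (f z' b + c (proj f a b z')))
    rwa [ap_T hf, symm hf b a, hab, mul_one] at this
  rw [← h.ap_norm hf hab h1] at h2
  have h3 := h2.map (inv_mem (h.mem _ (proj_perp_left hf hab z')))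
  rw [ap_inv_ap] at h3
  have h4 := h3.smul hz
  rwa [hz', smul_inv_smul₀ hz] at h4

/-- With a transvection at `a`, the group is the whole isometry group. -/
theorem eq_isom_of_transvection [Finite F] (hL : L ≤ isom f) (ha : a ≠ 0)
    (h : IsCompl hf L a c)
    (hirr : ∀ W : Submodule F (ι → F), (∀ g ∈ L, ∀ w ∈ W, ap g w ∈ W) → W = ⊥ ∨ W = ⊤)
    (h4 : 4 ≤ Fintype.card ι) {σ : F} (hσ : σ ≠ 0) (hσL : T hf a σ ∈ L) : L = isom f := by
  refine le_antisymm hL (isom_le_of_T_mem hf fun v s => ?_)
  by_cases hv : v = 0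
  · subst hv
    convert one_mem L using 1
    exact gl_ext fun x => by simp [ap_T hf]
  have full : ∀ p, InP L a p → ∀ s, T hf p s ∈ L := by
    intro p hp s
    obtain ⟨cp, hcp⟩ := h.exists_of_inP hf hL hp
    obtain ⟨t, ht, htL⟩ := T_mem_of_inP hf hL hp hσL
    exact hcp.all_transvections hf hL (hp.ne_zero ha) hirr h4 (ht hσ) htL s
  have step : ∀ p, InP L a p → ∀ z, f z p ≠ 0 → InP L a z := by
    intro p hp z hz
    obtain ⟨cp, hcp⟩ := h.exists_of_inP hf hL hp
    obtain ⟨q, hq, hpq⟩ := exists_partner hf (hp.ne_zero ha) hirr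
    exact hp.trans (hcp.inP_of_nonperp hf hpq hq (full p hp) hz)
  refine full v ?_ s
  by_cases hva : f v a = 0
  · obtain ⟨b, hb, hab⟩ := exists_partner hf ha hirr
    obtain ⟨w, hw⟩ := (hf.nondegenerate v hv).1
    by_cases hwa : f w a = 0
    · by_cases hvb : f v b = 0
      · refine step (w + b) (step a (InP.refl L a) _ ?_) v ?_
        · rw [hf.bilinear.add_left, hwa, symm hf b a, hab, zero_add]; exact one_ne_zero
        · rw [hf.bilinear.add_right, hvb, add_zero, symm hf]; exact hw
      · exact step b hb v hvb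
    · exact step w (step a (InP.refl L a) w hwa) v (by rw [symm hf]; exact hw)
  · exact step a (InP.refl L a) v hva

end CfsgLib.SpOverX
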