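import Cfsg.Agent.Lib.SpOverX.Form

/-!
Without transvections the complement functions vanish on orthogonal orbit points, unless the space
has dimension four over two elements.
-/

set_option autoImplicit false
set_option linter.unusedSectionVars false

namespace CfsgLib.SpOverX

open Matrix CfsgLib.Geometric CfsgLib.Geometric.Symp

variable {ι : Type} [Fintype ι] [DecidableEq ι] {F : Type*} [Field F] [CharP F 2]
  {f : (ι → F) → (ι → F) → F} (hf : Cfsg.Geo.IsSymplecticForm f)
  {L : Subgroup (GL ι F)} {a : ι → F} {c : (ι → F) → F}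

include hf

/-- In dimension above four two orthogonal vectors have a further common orthogonal vector. -/
lemma exists_third (h5 : 5 ≤ Fintype.card ι) {x p : ι → F} (hx : x ≠ 0)
    (hp : p ∉ Submodule.span F {x}) :
    ∃ w, f w p = 0 ∧ f w x = 0 ∧ w ∉ Submodule.span F {x, p} := by
  classical
  have hx' : x ∉ Submodule.span F {p} := by
    intro hmem
    obtain ⟨k, hk⟩ := Submodule.mem_span_singleton.1 hmem
    apply hp
    have hk0 : k ≠ 0 := fun h => hx (by rw [← hk, h, zero_smul])
    exact Submodule.mem_span_singleton.2 ⟨k⁻¹, by rw [← hk, inv_smul_smul₀ hk0]⟩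
  obtain ⟨v₁, hv₁, h1⟩ := exists_dual_one hf hx' 1
  obtain ⟨v₂, hv₂, h2⟩ := exists_dual_one hf hp 1
  have h1p : f v₁ p = 0 := (mem_perp_span hf).1 hv₁
  have h2x : f v₂ x = 0 := (mem_perp_span hf).1 hv₂
  have hcard : ({x, p, v₁, v₂} : Finset (ι → F)).card < Fintype.card ι :=
    lt_of_le_of_lt Finset.card_le_four (by omega)
  obtain ⟨z, hz⟩ := exists_notMem_span hf _ hcard
  refine ⟨z + f z x • v₁ + f z p • v₂, ?_, ?_, fun hmem => hz ?_⟩
  · rw [hf.bilinear.add_left, hf.bilinear.add_left, hf.bilinear.smul_left, hf.bilinear.smul_left,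
      h1p, h2, mul_zero, add_zero, mul_one, CharTwo.add_self_eq_zero]
  · rw [hf.bilinear.add_left, hf.bilinear.add_left, hf.bilinear.smul_left, hf.bilinear.smul_left,
      h1, h2x, mul_zero, add_zero, mul_one, CharTwo.add_self_eq_zero]
  · have hle : Submodule.span F {x, p} ≤
        Submodule.span F (({x, p, v₁, v₂} : Finset (ι → F)) : Set (ι → F)) :=
      Submodule.span_mono (by intro y hy; simp at hy ⊢; tauto)
    have h3 := hle hmem
    have m1 : f z x • v₁ ∈ Submodule.span F (({x, p, v₁, v₂} : Finset (ι → F)) : Set (ι → F)) :=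
      Submodule.smul_mem _ _ (Submodule.subset_span (by simp))
    have m2 : f z p • v₂ ∈ Submodule.span F (({x, p, v₁, v₂} : Finset (ι → F)) : Set (ι → F)) :=
      Submodule.smul_mem _ _ (Submodule.subset_span (by simp))
    exact (Submodule.add_mem_iff_left _ m1).1 ((Submodule.add_mem_iff_left _ m2).1 h3)

/-- The vanishing, outside dimension four over two elements. -/
theorem zProp_of_noT (hL : L ≤ isom f) (ha : a ≠ 0) (h : IsCompl hf L a c)
    (hA : ∀ s, T hf a s ∈ L → s = 0)
    (hex : 5 ≤ Fintype.card ι ∨ ∃ k : F, k ≠ 0 ∧ k ≠ 1) : ZProp hf L a := by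
  intro x hx cx hcx p hp hpx hn m
  have hxA := noT_of_inP hf hL hA hx
  obtain ⟨cp, hcp⟩ := h.exists_of_inP hf hL hp
  have hx0 : x ≠ 0 := hx.ne_zero ha
  rcases hex with h5 | ⟨k, hk0, hk1⟩
  · obtain ⟨w, hwp, hwx, hw⟩ := exists_third hf h5 hx0 hn
    have hn' : p ∉ Submodule.span F {x, w} := by
      intro hmem
      obtain ⟨α, β, hab⟩ := Submodule.mem_span_pair.1 hmem
      by_cases hβ : β = 0
      · rw [hβ, zero_smul, add_zero] at hab
        exact hn (Submodule.mem_span_singleton.2 ⟨α, hab⟩)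
      · refine hw (Submodule.mem_span_pair.2 ⟨-(β⁻¹ * α), β⁻¹, ?_⟩)
        rw [← hab, smul_add, smul_smul, smul_smul, inv_mul_cancel₀ hβ, one_smul, ← add_assoc,
          ← add_smul, neg_add_cancel, zero_smul, zero_add]
    exact hxA _ (hcx.pm_perp hf hL hpx hwp hwx (hcp.mem w hwp) hn' hw m)
  · have hxp : f x p = 0 := by rw [symm hf]; exact hpx
    have hn2 : x ∉ Submodule.span F {p} := by
      intro hmem
      obtain ⟨r, hr⟩ := Submodule.mem_span_singleton.1 hmem
      have hr0 : r ≠ 0 := fun h => hx0 (by rw [← hr, h, zero_smul])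
      exact hn (Submodule.mem_span_singleton.2 ⟨r⁻¹, by rw [← hr, inv_smul_smul₀ hr0]⟩)
    have hpA := noT_of_inP hf hL hA hp
    have fwd : ∀ (η s : F), s ≠ 0 → E hf p (η • x) s ∈ L → ∀ r : F, cx (r • p) = r * r / s :=
      fun η s hs hy r => CharTwo.add_eq_zero.1 (hxA _ (hcx.pm_line hf hL hpx hn hy hs r))
    have bwd : ∀ (η s : F), s ≠ 0 → E hf x (η • p) s ∈ L → ∀ r : F, cp (r • x) = r * r / s :=
      fun η s hs hy r => CharTwo.add_eq_zero.1 (hpA _ (hcp.pm_line hf hL hxp hn2 hy hs r))
    by_contra hne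
    set s := cx (m • p) with hs
    have hmem : f (m • p) x = 0 := by rw [hf.bilinear.smul_left, hpx, mul_zero]
    have hb := bwd m s hne (hcx.mem _ hmem)
    have hmx : ∀ r : F, f (r • x) p = 0 := fun r => by
      rw [hf.bilinear.smul_left, hxp, mul_zero]
    have h1 := fwd 1 _ (by rw [hb 1]; simp [hne]) (hcp.mem _ (hmx 1)) 1
    have h2 := fwd k _ (by rw [hb k]; simp [hne, hk0]) (hcp.mem _ (hmx k)) 1
    rw [h1, hb 1, hb k] at h2
    field_simp at h2
    have h3 : k * k = 1 * 1 := by linear_combination h2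
    rcases mul_self_eq_mul_self_iff.1 h3 with h | h
    · exact hk1 h
    · exact hk1 (by rwa [CharTwo.neg_eq] at h)

end CfsgLib.SpOverX
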